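import Groth.Agent.Sga2lef.H102.Transfer
import Groth.Agent.CycB.PushStalk
import Groth.Agent.Ega4B.DepthTransfer
import Groth.Agent.Ega4B.DepthBasic

/-!
# Depth of the image of `s ^ c` on `ι_* O_X` at the points where `s` does not vanish
-/

set_option autoImplicit false
universe u
open CategoryTheory CategoryTheory.Limits AlgebraicGeometry Opposite TopologicalSpace

namespace Groth.Agent.Sga2lef.H102.DepthPush

open Groth.Agent.Ega4dA.GenSec (res resO IsGen res_self res_res res_smul res_add res_zero app_res eq_of_locally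
  exists_glue isInvertible_iff resO_resO)
open Groth.Agent.Sga2.TwIt Groth.Agent.Sga2.NegSec Groth.Agent.Sga2
open Groth.Agent.Sga2lef.H102.TwSec Groth.Agent.Sga2lef.H102.SplitExt Groth.Agent.Sga2lef.H102.Transfer
open Groth.Agent.CycB.StalkExact Groth.Agent.CycB.PushStalk

variable {X Z : Scheme.{u}} (ι : X ⟶ Z)

theorem depth_G [IsClosedImmersion ι] (x : X) :
    LocCoh.depth (Z.presheaf.stalk (ι x)) ((G ι).presheaf.stalk (ι x)) =
      LocCoh.depth (X.presheaf.stalk x) (X.presheaf.stalk x) := by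
  let e₁ : (G ι).presheaf.stalk (ι x) ≃+ (Coh.structureModule X).presheaf.stalk x :=
    AddEquiv.ofBijective (pushStalk ι (Coh.structureModule X) x)
      (pushStalk_bijective ι ι.isClosedEmbedding.isInducing (Coh.structureModule X) x)
  let e₂ : (Coh.structureModule X).presheaf.stalk x ≃+ X.presheaf.stalk x := (unitStalk X x).symm.toAddEquiv
  refine (Groth.Agent.Ega4B.DepthTransfer.depth_eq (ι.stalkMap x).hom (e₁.trans e₂) (fun b n => ?_)
    (ι.stalkMap_surjective x)).symm
  change (unitStalk X x).symm (pushStalk ι (Coh.structureModule X) x (b • n)) =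
    (ι.stalkMap x).hom b • (unitStalk X x).symm (pushStalk ι (Coh.structureModule X) x n)
  rw [map_smulₛₗ, map_smul]

variable {P : Z.Modules} (hP : PicF.IsInvertible P) {a : ℕ} (s : Sec P a) (c : ℕ) {D : Z.Opens} (hD : IsLocus s D)

include hD in
theorem stalk_j_bijective (z : Z) (hz : z ∈ D) : Function.Bijective (stalkLin (j ι hP s c) z) := by
  refine ⟨stalkLin_injective _ z, fun g => ?_⟩
  obtain ⟨V, hzV, p, hp, e, he⟩ := StalkTw.exists_stalk_hom hP (spow s c) (G ι) z
  have hu : IsUnit (Z.presheaf.germ V z hzV ((spow s c).c V p hp)) := by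
    rw [spow_c, map_pow]
    refine IsUnit.pow _ ?_
    rw [← Z.mem_basicOpen _ _ hzV, hD V p hp]
    exact ⟨hzV, hz⟩
  obtain ⟨v, hv⟩ := hu
  refine ⟨stalkLin (q ι hP s c) z (e.symm ((v⁻¹ : (Z.presheaf.stalk z)ˣ) • g)), ?_⟩
  rw [← LinearMap.comp_apply, ← stalkLin_comp, q_j, he, e.apply_symm_apply, ← hv]
  exact smul_inv_smul v g

include hD in
theorem depth_F (z : Z) (hz : z ∈ D) :
    LocCoh.depth (Z.presheaf.stalk z) ((F ι hP s c).presheaf.stalk z) =
      LocCoh.depth (Z.presheaf.stalk z) ((G ι).presheaf.stalk z) :=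
  Groth.Agent.Localalg.Depth.idealDepth_congr_equiv _
    (LinearEquiv.ofBijective (stalkLin (j ι hP s c) z) (stalk_j_bijective ι hP s c hD z hz))

include hD in
theorem lt_depth_F [IsClosedImmersion ι] (n : ℕ)
    (hd : ∀ x : X, ι x ∈ D → IsClosed ({x} : Set X) →
      (n : ℕ∞) < LocCoh.depth (X.presheaf.stalk x) (X.presheaf.stalk x))
    (z : Z) (hz : z ∈ D) (hzc : IsClosed ({z} : Set Z)) :
    (n : ℕ∞) < LocCoh.depth (Z.presheaf.stalk z) ((F ι hP s c).presheaf.stalk z) := by
  rw [depth_F ι hP s c hD z hz]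
  by_cases h : z ∈ Set.range ι
  · obtain ⟨x, rfl⟩ := h
    rw [depth_G]
    refine hd x hz ?_
    have h1 := hzc.preimage ι.continuous
    convert h1
    ext y
    simp only [Set.mem_singleton_iff, Set.mem_preimage]
    exact ⟨fun h => by rw [h], fun h => ι.isClosedEmbedding.injective h⟩
  · have : Subsingleton ((G ι).presheaf.stalk z) := by
      refine subsingleton_stalk_push ι _ z ?_
      rwa [ι.isClosedEmbedding.isClosed_range.closure_eq]
    rw [Groth.Agent.Ega4B.DepthBasic.depth_eq_top_of_subsingleton]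
    exact ENat.natCast_lt_top n

end Groth.Agent.Sga2lef.H102.DepthPush
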