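import Groth.Agent.Sga2lef.H102.Transfer

/-!
# The local hypotheses of `Transfer` from an affine cover
-/

set_option autoImplicit false
universe u
open CategoryTheory CategoryTheory.Limits AlgebraicGeometry Opposite TopologicalSpace

namespace Groth.Agent.Sga2lef.H102.GoodLoc

open Groth.Agent.Ega4dA.GenSec (res resO IsGen res_self res_res res_smul res_add res_zero app_res eq_of_locally
  exists_glue isInvertible_iff resO_resO)
open Groth.Agent.Sga2.TwIt Groth.Agent.Sga2.NegSec Groth.Agent.Sga2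
open Groth.Agent.Sga2lef.H102.Transfer

section alg

/-- `f` has a torsion exponent in a Noetherian ring. -/
def Tors {R : Type*} [CommRing R] (f : R) (c : ℕ) : Prop := ∀ (m : ℕ) (w : R), f ^ (m + c) * w = 0 → f ^ c * w = 0

theorem Tors.mono {R : Type*} [CommRing R] {f : R} {c c' : ℕ} (h : Tors f c) (hc : c ≤ c') : Tors f c' := by
  intro m w hw
  obtain ⟨d, rfl⟩ := Nat.exists_eq_add_of_le hc
  have h1 : f ^ (m + d + c) * w = 0 := by rw [show m + d + c = m + (c + d) by ring]; exact hw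
  rw [pow_add, mul_right_comm, h _ _ h1, zero_mul]

theorem exists_tors {R : Type*} [CommRing R] [IsNoetherianRing R] (f : R) : ∃ c, Tors f c := by
  let A : ℕ →o Ideal R :=
    ⟨fun n => LinearMap.ker (LinearMap.mulLeft R (f ^ n)), fun n m hnm w hw => by
      rw [LinearMap.mem_ker, LinearMap.mulLeft_apply] at hw ⊢
      obtain ⟨d, rfl⟩ := Nat.exists_eq_add_of_le hnm
      rw [pow_add, mul_right_comm, hw, zero_mul]⟩
  obtain ⟨c, hc⟩ := monotone_stabilizes_iff_noetherian.mpr (inferInstance : IsNoetherian R R) A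
  refine ⟨c, fun m w hw => ?_⟩
  have h1 : w ∈ A (m + c) := hw
  rw [← hc (m + c) (by omega)] at h1
  exact h1

theorem Tors.unit_mul {R : Type*} [CommRing R] {f : R} {c : ℕ} (h : Tors f c) {v : R} (hv : IsUnit v) :
    Tors (v * f) c := by
  intro m w hw
  rw [mul_pow, mul_assoc, (hv.pow _).mul_right_eq_zero] at hw
  rw [mul_pow, mul_assoc, h m w hw, mul_zero]

theorem Tors.away {R S : Type*} [CommRing R] [CommRing S] [Algebra R S] (g : R) [IsLocalization.Away g S] {f : R}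
    {c : ℕ} (h : Tors f c) : Tors (algebraMap R S f) c := by
  intro m w hw
  obtain ⟨n, w₀, hw₀⟩ := IsLocalization.Away.surj g w
  have h1 : algebraMap R S (f ^ (m + c) * w₀) = 0 := by
    rw [map_mul, map_pow, ← hw₀, ← mul_assoc, hw, zero_mul]
  rw [IsLocalization.map_eq_zero_iff (Submonoid.powers g) S] at h1
  obtain ⟨⟨_, k, rfl⟩, hk⟩ := h1
  have h2 : f ^ (m + c) * (g ^ k * w₀) = 0 := by rw [← hk]; ring
  have h3 := congrArg (algebraMap R S) (h m _ h2)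
  rw [map_mul, map_mul, map_pow, map_pow, ← hw₀, map_zero] at h3
  have hu : IsUnit (algebraMap R S g) := IsLocalization.Away.algebraMap_isUnit g
  have h4 : (algebraMap R S g ^ k * algebraMap R S g ^ n) * (algebraMap R S f ^ c * w) = 0 := by
    rw [← h3]; ring
  exact (((hu.pow k).mul (hu.pow n)).mul_right_eq_zero).mp h4

end alg

variable {X Z : Scheme.{u}}

/-- `I ^ e ⊆ (f)` if `D(t) ⊆ D(f)` for all `t ∈ I`. -/
theorem exists_pow_le {U : X.Opens} (hU : IsAffineOpen U) [IsNoetherianRing Γ(X, U)] (I : Ideal Γ(X, U))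
    (f : Γ(X, U)) (h : ∀ t ∈ I, X.basicOpen t ≤ X.basicOpen f) : ∃ e : ℕ, I ^ e ≤ Ideal.span {f} := by
  refine Ideal.exists_pow_le_of_le_radical_of_fg (fun t ht => ?_) (IsNoetherian.noetherian I)
  rw [Ideal.radical_eq_sInf, Submodule.mem_sInf]
  rintro q ⟨hfq, hq⟩
  by_contra htq
  let y : PrimeSpectrum Γ(X, U) := ⟨q, hq⟩
  have h1 : y ∈ hU.fromSpec ⁻¹ᵁ X.basicOpen t := by
    rw [hU.fromSpec_preimage_basicOpen t]
    exact htq
  have h2 : y ∈ hU.fromSpec ⁻¹ᵁ X.basicOpen f := h t ht h1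
  rw [hU.fromSpec_preimage_basicOpen f] at h2
  exact h2 (hfq (Ideal.mem_span_singleton_self f))

variable (ι : X ⟶ Z) {P : Z.Modules} {a : ℕ} (s : Sec P a)

theorem exists_good [IsAffineHom ι] [IsLocallyNoetherian X] {J : Type*} [Finite J] (W : J → Z.Opens)
    (hW : ∀ j, IsAffineOpen (W j)) (hcov : ⨆ j, W j = ⊤) (p : ∀ j, Γ(P, W j)) (hp : ∀ j, IsGen P (W j) (p j))
    (𝓘 : X.IdealSheafData)
    (hmem : ∀ j, ι.app (W j) (s.c (W j) (p j) (hp j)) ∈ 𝓘.ideal ⟨ι ⁻¹ᵁ W j, (hW j).preimage ι⟩)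
    (hsupp : ∀ j, ∀ x ∈ ι ⁻¹ᵁ W j, x ∉ 𝓘.support → x ∈ X.basicOpen (ι.app (W j) (s.c (W j) (p j) (hp j)))) :
    ∃ c e : ℕ, ∀ (V : Z.Opens) (z : Z), z ∈ V → ∃ (W : Z.Opens) (_ : W ≤ V), z ∈ W ∧
      ∀ (p : Γ(P, W)) (hp : IsGen P W p), Good ι s 𝓘 c e W p hp := by
  have hNoeth : ∀ j, IsNoetherianRing Γ(X, ι ⁻¹ᵁ W j) := fun j =>
    IsLocallyNoetherian.component_noetherian ⟨ι ⁻¹ᵁ W j, (hW j).preimage ι⟩
  choose c₀ hc₀ using fun j => exists_tors (ι.app (W j) (s.c (W j) (p j) (hp j)))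
  choose e₀ he₀ using fun j => exists_pow_le ((hW j).preimage ι) (𝓘.ideal ⟨ι ⁻¹ᵁ W j, (hW j).preimage ι⟩)
    (ι.app (W j) (s.c (W j) (p j) (hp j))) (fun t ht x hx => by
      have hxW : x ∈ ι ⁻¹ᵁ W j := X.basicOpen_le t hx
      refine hsupp j x hxW fun hs => ?_
      rw [Scheme.IdealSheafData.mem_support_iff_of_mem (U := ⟨ι ⁻¹ᵁ W j, (hW j).preimage ι⟩) hxW,
        Scheme.mem_zeroLocus_iff] at hs
      exact hs t ht hx)
  cases nonempty_fintype J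
  let c := Finset.univ.sup c₀
  let e := Finset.univ.sup e₀
  have hc : ∀ j, Tors (ι.app (W j) (s.c (W j) (p j) (hp j))) c := fun j =>
    Tors.mono (hc₀ j) (Finset.le_sup (Finset.mem_univ j))
  have he : ∀ j, 𝓘.ideal ⟨ι ⁻¹ᵁ W j, (hW j).preimage ι⟩ ^ e ≤
      Ideal.span {ι.app (W j) (s.c (W j) (p j) (hp j))} := fun j =>
    (Ideal.pow_le_pow_right (Finset.le_sup (Finset.mem_univ j))).trans (he₀ j)
  refine ⟨c, e, fun V z hz => ?_⟩
  have hz' : z ∈ ⨆ j, W j := by rw [hcov]; trivial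
  obtain ⟨j, hj⟩ := Opens.mem_iSup.mp hz'
  obtain ⟨g, hgV, hzg⟩ := (hW j).exists_basicOpen_le ⟨z, hz⟩ hj
  refine ⟨Z.basicOpen g, hgV, hzg, fun q hq => ?_⟩
  have hle : Z.basicOpen g ≤ W j := Z.basicOpen_le g
  obtain ⟨v, hv⟩ := ((hp j).mono hle).exists_unit hq
  -- the function
  have hf : ι.app (Z.basicOpen g) (s.c (Z.basicOpen g) q hq) = ι.app (Z.basicOpen g) (v ^ a : Γ(Z, Z.basicOpen g)) *
      resO X (show ι ⁻¹ᵁ (Z.basicOpen g) ≤ ι ⁻¹ᵁ (W j) from fun _ hx => hle hx)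
        (ι.app (W j) (s.c (W j) (p j) (hp j))) := by
    rw [resO_app ι hle, s.res_c (W j) (Z.basicOpen g) hle, ← map_mul,
      ← s.c_smul _ _ ((hp j).mono hle) _ v.isUnit]
    congr 1
    exact s.c_congr hv.symm _ _
  have hunit : IsUnit (ι.app (Z.basicOpen g) (v ^ a : Γ(Z, Z.basicOpen g))) :=
    (v.isUnit.pow a).map (ι.app (Z.basicOpen g)).hom
  have haff : IsAffineOpen (ι ⁻¹ᵁ Z.basicOpen g) := ((hW j).basicOpen g).preimage ι
  have hle' : (⟨ι ⁻¹ᵁ Z.basicOpen g, haff⟩ : X.affineOpens) ≤ ⟨ι ⁻¹ᵁ W j, (hW j).preimage ι⟩ :=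
    fun _ hx => hle hx
  refine ⟨haff, ?_, ?_, ?_⟩
  · let _ : Algebra Γ(X, ι ⁻¹ᵁ W j) Γ(X, ι ⁻¹ᵁ Z.basicOpen g) :=
      (X.presheaf.map (homOfLE (show ι ⁻¹ᵁ (Z.basicOpen g) ≤ ι ⁻¹ᵁ (W j) from fun _ hx => hle hx)).op).hom.toAlgebra
    have : IsLocalization.Away (ι.app (W j) g) Γ(X, ι ⁻¹ᵁ Z.basicOpen g) :=
      ((hW j).preimage ι).isLocalization_of_eq_basicOpen _ _ (Scheme.preimage_basicOpen ι g)
    have h1 : Tors (algebraMap Γ(X, ι ⁻¹ᵁ W j) Γ(X, ι ⁻¹ᵁ Z.basicOpen g)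
      (ι.app (W j) (s.c (W j) (p j) (hp j)))) c := (hc j).away (ι.app (W j) g)
    have h2 := h1.unit_mul hunit
    rw [hf]
    exact h2
  · rw [hf]
    refine Ideal.mul_mem_left _ _ ?_
    rw [← 𝓘.map_ideal hle']
    exact Ideal.mem_map_of_mem _ (hmem j)
  · rw [hf, Ideal.span_singleton_mul_left_unit hunit, ← 𝓘.map_ideal hle', ← Ideal.map_pow]
    refine (Ideal.map_mono (he j)).trans ?_
    rw [Ideal.map_span, Set.image_singleton]
    rfl

end Groth.Agent.Sga2lef.H102.GoodLoc
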