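import Groth.Agent.Sga2.NegSec
import Groth.Agent.VarietyA.EulerLES

/-!
# Powers of a section of a negative twist acting on cohomology

For `P` invertible, `s : NegSec.Sec P a` and `spow s b : Sec P (a * b)` its powers.

* `factor_It`: if `s.hom hP K` factors through `π : E ⟶ K` then so does its twist by `It P m`.
* `Nul hP s F i`: for some `b`, multiplication by `s ^ b` is zero
  `H^i(X, F ⊗ P^m ⊗ P^{ab}) ⟶ H^i(X, F ⊗ P^m)` for all large `m`.
* `nul_of_shortExact`: dimension shifting; `nul_of_factor`: the case where a power of `s` factors through a module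
  without cohomology in negative twists.
-/

set_option autoImplicit false
universe u
open CategoryTheory CategoryTheory.Limits AlgebraicGeometry Opposite TopologicalSpace

namespace Groth.Agent.Sga2lef.H102.TwSec

open Groth.Agent.Ega4dA.GenSec (res resO IsGen res_self res_res res_smul res_add res_zero app_res eq_of_locally
  exists_glue isInvertible_iff)
open Groth.Agent.Sga2.TwIt Groth.Agent.Sga2.NegSec Groth.Agent.VarietyA.EulerLES

variable {X : Scheme.{u}} {P : X.Modules}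

/-- Powers of a section of a negative twist. -/
noncomputable def spow {a : ℕ} (s : Sec P a) (b : ℕ) : Sec P (a * b) where
  c V p hp := s.c V p hp ^ b
  res_c V W h p hp := by
    rw [← s.res_c V W h p hp]
    exact map_pow (X.presheaf.map (homOfLE h).op).hom _ _
  c_smul V p hp r hr := by
    rw [s.c_smul V p hp r hr, mul_pow, pow_mul]

theorem spow_c {a : ℕ} (s : Sec P a) (b : ℕ) (V : X.Opens) (p : Γ(P, V)) (hp : IsGen P V p) :
    (spow s b).c V p hp = s.c V p hp ^ b := rfl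

/-- The exchange `(K ⊗ P) ⊗ P^a ⟶ (K ⊗ P^a) ⊗ P`. -/
noncomputable def swap (P K : X.Modules) : ∀ a : ℕ, (It P a).obj ((Tw P).obj K) ⟶ (Tw P).obj ((It P a).obj K)
  | 0 => 𝟙 _
  | a + 1 => (Tw P).map (swap P K a)

theorem swap_ev (K : X.Modules) (a : ℕ) {V : X.Opens} (p : Γ(P, V)) (x : Γ(K, V)) :
    (swap P K a).app V (ev ((Tw P).obj K) p a (tw P K p x)) = tw P ((It P a).obj K) p (ev K p a x) := by
  induction a with
  | zero => rfl
  | succ a ih =>
    have h1 := map_tw p (swap P K a) (ev ((Tw P).obj K) p a (tw P K p x))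
    rw [ih] at h1
    exact h1

theorem factor_step (hP : PicF.IsInvertible P) {a : ℕ} (s : Sec P a) {E K : X.Modules} (π : E ⟶ K)
    (h : ∃ α : (It P a).obj K ⟶ E, α ≫ π = s.hom hP K) :
    ∃ α : (It P a).obj ((Tw P).obj K) ⟶ (Tw P).obj E, α ≫ (Tw P).map π = s.hom hP ((Tw P).obj K) := by
  obtain ⟨α, hα⟩ := h
  refine ⟨swap P K a ≫ (Tw P).map α, ?_⟩
  rw [Category.assoc, ← (Tw P).map_comp, hα]
  refine It_hom_ext hP fun V p hp y => ?_
  obtain ⟨x, rfl⟩ := (tw_bijective K hp).2 y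
  change ((Tw P).map (s.hom hP K)).app V ((swap P K a).app V _) = _
  rw [swap_ev, map_tw, s.hom_ev hP _ hp, s.hom_ev hP _ hp, tw_smul]

theorem factor_It (hP : PicF.IsInvertible P) {a : ℕ} (s : Sec P a) {E K : X.Modules} (π : E ⟶ K)
    (h : ∃ α : (It P a).obj K ⟶ E, α ≫ π = s.hom hP K) (m : ℕ) :
    ∃ α : (It P a).obj ((It P m).obj K) ⟶ (It P m).obj E, α ≫ (It P m).map π = s.hom hP ((It P m).obj K) := by
  induction m with
  | zero => exact h
  | succ m ih => exact factor_step hP s ((It P m).map π) ih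

/-- A power of `s` kills `H^i` of all sufficiently negative twists of `F`. -/
def Nul (hP : PicF.IsInvertible P) {a : ℕ} (s : Sec P a) (F : X.Modules) (i : ℕ) : Prop :=
  ∃ b m₀ : ℕ, ∀ m, m₀ ≤ m → mapΓ ((spow s b).hom hP ((It P m).obj F)) i = 0

/-- A power of `s` factors through a module without `H^i` in negative twists. -/
theorem nul_of_factor (hP : PicF.IsInvertible P) {a : ℕ} (s : Sec P a) {E K : X.Modules} (π : E ⟶ K)
    (h : ∃ (b : ℕ) (α : (It P (a * b)).obj K ⟶ E), α ≫ π = (spow s b).hom hP K) (i : ℕ)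
    (hE : ∃ m₀, ∀ m, m₀ ≤ m → Subsingleton (Coh.HH X ((It P m).obj E) i)) : Nul hP s K i := by
  obtain ⟨b, h⟩ := h
  obtain ⟨m₀, hm₀⟩ := hE
  refine ⟨b, m₀, fun m hm => ?_⟩
  obtain ⟨α, hα⟩ := factor_It hP (spow s b) π h m
  rw [← hα, mapΓ_comp]
  have := hm₀ m hm
  ext x
  rw [LinearMap.comp_apply, Subsingleton.elim (mapΓ α i x) 0, map_zero]
  rfl

theorem delta_naturality {S₁ S₂ : ShortComplex X.Modules} (h₁ : S₁.ShortExact) (h₂ : S₂.ShortExact) (φ : S₁ ⟶ S₂)
    (i : ℕ) (x : Coh.HH X S₁.X₃ i) :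
    deltaΓ S₂ h₂ i (i + 1) rfl (mapΓ φ.τ₃ i x) = mapΓ φ.τ₁ (i + 1) (deltaΓ S₁ h₁ i (i + 1) rfl x) := by
  rw [deltaΓ_apply, mapΓ_apply, mapΓ_apply, deltaΓ_apply, Sheaf.H.map_apply, Sheaf.H.map_apply,
    Abelian.Ext.comp_assoc_of_third_deg_zero, Abelian.Ext.comp_assoc_of_second_deg_zero]
  have h1 : (toAbF X).map φ.τ₁ ≫ (toAbF X).map S₂.f = (toAbF X).map S₁.f ≫ (toAbF X).map φ.τ₂ := by
    rw [← Functor.map_comp, φ.comm₁₂, Functor.map_comp]
  have h2 : (toAbF X).map φ.τ₂ ≫ (toAbF X).map S₂.g = (toAbF X).map S₁.g ≫ (toAbF X).map φ.τ₃ := by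
    rw [← Functor.map_comp, φ.comm₂₃, Functor.map_comp]
  rw [extCl_naturality h₁ h₂ _ _ _ h1 h2]

/-- Dimension shifting. -/
theorem nul_of_shortExact (hP : PicF.IsInvertible P) {a : ℕ} (s : Sec P a) {S : ShortComplex X.Modules}
    (hS : S.ShortExact) (i : ℕ)
    (hE : ∃ m₀, ∀ m, m₀ ≤ m → Subsingleton (Coh.HH X ((It P m).obj S.X₂) i)) (hK : Nul hP s S.X₁ (i + 1)) :
    Nul hP s S.X₃ i := by
  obtain ⟨m₀, hm₀⟩ := hE
  obtain ⟨b, m₁, hm₁⟩ := hK
  refine ⟨b, max m₀ m₁, fun m hm => ?_⟩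
  have h1 := It_shortExact hP hS m
  have h2 := It_shortExact hP h1 (a * b)
  let φ : (S.map (It P m)).map (It P (a * b)) ⟶ S.map (It P m) :=
    { τ₁ := (spow s b).hom hP _
      τ₂ := (spow s b).hom hP _
      τ₃ := (spow s b).hom hP _
      comm₁₂ := ((spow s b).hom_naturality hP _).symm
      comm₂₃ := ((spow s b).hom_naturality hP _).symm }
  ext x
  have h3 := delta_naturality h2 h1 φ i x
  have h4 : mapΓ φ.τ₁ (i + 1) = 0 := hm₁ m ((le_max_right _ _).trans hm)
  rw [h4, LinearMap.zero_apply] at h3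
  obtain ⟨y, hy⟩ := (exact₃ _ h1 i (i + 1) rfl _).mp h3
  have := hm₀ m ((le_max_left _ _).trans hm)
  have hy0 : y = 0 := Subsingleton.elim (α := Coh.HH X ((It P m).obj S.X₂) i) _ _
  rw [hy0, map_zero] at hy
  exact hy.symm

end Groth.Agent.Sga2lef.H102.TwSec
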