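import Groth.Agent.Sga2lef.H102.GlueHom
import Groth.Agent.Sga2lef.H102.TwSec
import Groth.Agent.CohqB.HomSheafQCoh
import Groth.Agent.Sga2.AmpleExt

/-!
# A morphism split over `X_s` is split up to a power of `s`

`exists_factor`: `π : E ⟶ K` a morphism of quasi-coherent modules (`K` of finite presentation), `t` a section of `π`
over the nonvanishing locus `D` of `s : Sec P a`.  Then some power `s ^ b : K ⊗ P^{ab} ⟶ K` factors through `π`.
-/

set_option autoImplicit false
universe u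
open CategoryTheory CategoryTheory.Limits AlgebraicGeometry Opposite TopologicalSpace

namespace Groth.Agent.Sga2lef.H102.SplitExt

open Groth.Agent.Ega4dA.GenSec (res resO IsGen res_self res_res res_smul res_add res_zero app_res eq_of_locally
  exists_glue isInvertible_iff resO_resO)
open Groth.Agent.Sga2.TwIt Groth.Agent.Sga2.NegSec Groth.Agent.Sga2
open Groth.Agent.CohqB.HomSheaf (homSheaf comp comp_map comp_smul comp_sub ofHom comp_ofHom mkSec comp_mkSec sec_ext
  isLocAt_homSheaf)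
open Groth.Agent.Sga2lef.H102.GlueHom Groth.Agent.Sga2lef.H102.TwSec

variable {X : Scheme.{u}} {P K E : X.Modules}

/-- The nonvanishing locus of a section of a negative twist. -/
def IsLocus {a : ℕ} (s : Sec P a) (D : X.Opens) : Prop :=
  ∀ (V : X.Opens) (p : Γ(P, V)) (hp : IsGen P V p), X.basicOpen (s.c V p hp) = V ⊓ D

theorem comp_res'' {U W : X.Opens} (h : W ≤ U) (s : Γ(homSheaf K E, U)) (V : X.Opens) (hV : V ≤ W) (x : Γ(K, V)) :
    comp (res (homSheaf K E) h s) V hV x = comp s V (hV.trans h) x := rfl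

theorem comp_smul'' {U : X.Opens} (r : Γ(X, U)) (s : Γ(homSheaf K E, U)) (V : X.Opens) (hV : V ≤ U) (x : Γ(K, V)) :
    comp (r • s) V hV x = resO X hV r • comp s V hV x := rfl

theorem comp_sub'' {U : X.Opens} (s t : Γ(homSheaf K E, U)) (V : X.Opens) (hV : V ≤ U) (x : Γ(K, V)) :
    comp (s - t) V hV x = comp s V hV x - comp t V hV x := rfl

/-- Composition of a section of the internal Hom with a morphism. -/
noncomputable def post {L : X.Modules} {U : X.Opens} (h : Γ(homSheaf K E, U)) (π : E ⟶ L) : Γ(homSheaf K L, U) :=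
  mkSec (fun V hV =>
    { toFun := fun x => π.app V (comp h V hV x)
      map_add' := fun x y => by rw [map_add, map_add]
      map_smul' := fun r x => by rw [map_smul, Scheme.Modules.Hom.app_smul, RingHom.id_apply] })
    (fun V W hV hW x => by
      change π.app W (comp h W (hW.trans hV) (res K hW x)) = res L hW (π.app V (comp h V hV x))
      rw [comp_map'', app_res])

theorem comp_post {L : X.Modules} {U : X.Opens} (h : Γ(homSheaf K E, U)) (π : E ⟶ L) (V : X.Opens) (hV : V ≤ U)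
    (x : Γ(K, V)) : comp (post h π) V hV x = π.app V (comp h V hV x) := rfl

theorem resO_pow {U V : X.Opens} (h : V ≤ U) (a : Γ(X, U)) (n : ℕ) : resO X h (a ^ n) = resO X h a ^ n :=
  map_pow (X.presheaf.map (homOfLE h).op).hom _ _

theorem resO_mul {U V : X.Opens} (h : V ≤ U) (a b : Γ(X, U)) : resO X h (a * b) = resO X h a * resO X h b :=
  map_mul (X.presheaf.map (homOfLE h).op).hom _ _

/-- sections over `W ⊓ D` extend up to a power of `f`. -/
theorem loc_surj (hE : Coh.IsQCoh E) (hK : Coh.IsQCoh K) {W D : X.Opens} (hW : IsAffineOpen W)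
    [Module.FinitePresentation Γ(X, W) Γ(K, W)] (f : Γ(X, W)) (hf : X.basicOpen f = W ⊓ D)
    (t : Γ(homSheaf K E, D)) :
    ∃ (n : ℕ) (h : Γ(homSheaf K E, W)), ∀ (V : X.Opens) (hV : V ≤ W) (hD : V ≤ D) (x : Γ(K, V)),
      comp h V hV x = resO X hV f ^ n • comp t V hD x := by
  obtain ⟨n, h, hh⟩ := (isLocAt_homSheaf hK hE hW f).surj' (W := W ⊓ D) hf.symm inf_le_left
    (res (homSheaf K E) inf_le_right t)
  refine ⟨n, h, fun V hV hD x => ?_⟩
  have h1 := congrArg (fun s : Γ(homSheaf K E, W ⊓ D) => comp s V (le_inf hV hD) x) hh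
  refine h1.trans ?_
  refine (comp_smul'' _ _ V (le_inf hV hD) x).trans ?_
  congr 1
  have h2 : (Groth.Agent.Ega1.QCohLoc.resO (inf_le_left : W ⊓ D ≤ W) f ^ n : Γ(X, W ⊓ D)) =
      resO X inf_le_left f ^ n := rfl
  rw [h2, resO_pow, resO_resO]

/-- sections over `W` vanishing over `W ⊓ D` are killed by a power of `f`. -/
theorem loc_inj (hE : Coh.IsQCoh E) (hK : Coh.IsQCoh K) {W D : X.Opens} (hW : IsAffineOpen W)
    [Module.FinitePresentation Γ(X, W) Γ(K, W)] (f : Γ(X, W)) (hf : X.basicOpen f = W ⊓ D)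
    (g : Γ(homSheaf K E, W)) (hg : ∀ (V : X.Opens) (hV : V ≤ W) (_ : V ≤ D) (x : Γ(K, V)), comp g V hV x = 0) :
    ∃ n : ℕ, ∀ m, n ≤ m → ∀ (V : X.Opens) (hV : V ≤ W) (x : Γ(K, V)), resO X hV f ^ m • comp g V hV x = 0 := by
  obtain ⟨n, hn⟩ := (isLocAt_homSheaf hK hE hW f).inj' (W := W ⊓ D) hf.symm inf_le_left g (by
    refine sec_ext fun V hV x => ?_
    exact hg V (hV.trans inf_le_left) (hV.trans inf_le_right) x)
  refine ⟨n, fun m hm V hV x => ?_⟩
  have h1 := congrArg (fun s : Γ(homSheaf K E, W) => comp s V hV x) hn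
  have h2 : resO X hV (f ^ n) • comp g V hV x = 0 := h1
  rw [resO_pow] at h2
  obtain ⟨l, rfl⟩ := Nat.exists_eq_add_of_le hm
  rw [pow_add, mul_comm, mul_smul, h2, smul_zero]

theorem exists_factor [CompactSpace X] [X.IsSeparated] (hP : PicF.IsInvertible P) {a : ℕ} (s : Sec P a)
    (D : X.Opens) (hD : IsLocus s D) (hE : Coh.IsQCoh E) (hK : Coh.IsQCoh K)
    (hfp : ∀ U : X.Opens, IsAffineOpen U → Module.FinitePresentation Γ(X, U) Γ(K, U)) (π : E ⟶ K)
    (t : Γ(homSheaf K E, D)) (ht : ∀ (V : X.Opens) (hV : V ≤ D) (x : Γ(K, V)), π.app V (comp t V hV x) = x) :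
    ∃ (b : ℕ) (α : (It P (a * b)).obj K ⟶ E), α ≫ π = (spow s b).hom hP K := by
  classical
  obtain ⟨N, W, e, hWaff, hWcov, he⟩ := AmpleExt.exists_cover hP
  replace he : ∀ i, IsGen P (W i) (e i) := he
  have hWfp : ∀ i, Module.FinitePresentation Γ(X, W i) Γ(K, W i) := fun i => hfp _ (hWaff i)
  let f : ∀ i, Γ(X, W i) := fun i => s.c (W i) (e i) (he i)
  have hf : ∀ i, X.basicOpen (f i) = W i ⊓ D := fun i => hD _ _ _
  -- local extensions
  choose b₀ h₀ hh₀ using fun i => loc_surj hE hK (hWaff i) (f i) (hf i) t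
  let B := Finset.univ.sup b₀
  obtain ⟨h₁, hh₁⟩ : ∃ h₁ : ∀ i, Γ(homSheaf K E, W i), ∀ i (V : X.Opens) (hV : V ≤ W i) (hVD : V ≤ D)
      (x : Γ(K, V)), comp (h₁ i) V hV x = resO X hV (f i) ^ B • comp t V hVD x := by
    refine ⟨fun i => (f i) ^ (B - b₀ i) • h₀ i, fun i V hV hVD x => ?_⟩
    refine (comp_smul'' _ _ V hV x).trans ?_
    rw [hh₀ i V hV hVD, ← mul_smul, resO_pow, ← pow_add, Nat.sub_add_cancel (Finset.le_sup (Finset.mem_univ i))]
  -- the composite with `π`
  have hc₁ : ∀ i, ∃ n : ℕ, ∀ m, n ≤ m → ∀ (V : X.Opens) (hV : V ≤ W i) (x : Γ(K, V)),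
      resO X hV (f i) ^ m • π.app V (comp (h₁ i) V hV x) = resO X hV (f i) ^ (B + m) • x := by
    intro i
    obtain ⟨n, hn⟩ := loc_inj hK hK (hWaff i) (f i) (hf i)
      (post (h₁ i) π - (f i) ^ B • ofHom (𝟙 K) (W i)) (fun V hV hVD x => by
        rw [comp_sub'', comp_post, comp_smul'', hh₁ i V hV hVD, Scheme.Modules.Hom.app_smul, ht, resO_pow]
        exact sub_self _)
    refine ⟨n, fun m hm V hV x => ?_⟩
    have h1 := hn m hm V hV x
    rw [comp_sub'', comp_post, comp_smul'', smul_sub, sub_eq_zero, ← mul_smul, resO_pow, ← pow_add,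
      Nat.add_comm m B] at h1
    exact h1
  choose n₁ hn₁ using hc₁
  -- the transition functions
  have hu : ∀ i j, ∃ u : Γ(X, W i ⊓ W j), IsUnit u ∧
      u • res P (inf_le_right : W i ⊓ W j ≤ W j) (e j) = res P (inf_le_left : W i ⊓ W j ≤ W i) (e i) := by
    intro i j
    obtain ⟨u, hu⟩ := ((he j).mono (inf_le_right : W i ⊓ W j ≤ W j)).exists_unit ((he i).mono inf_le_left)
    exact ⟨u.1, u.isUnit, hu⟩
  choose u huu hu using hu
  have hfu : ∀ i j, resO X (inf_le_left : W i ⊓ W j ≤ W i) (f i) =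
      u i j ^ a * resO X (inf_le_right : W i ⊓ W j ≤ W j) (f j) := by
    intro i j
    change resO X _ (s.c (W i) (e i) (he i)) = u i j ^ a * resO X _ (s.c (W j) (e j) (he j))
    rw [s.res_c, s.res_c, ← s.c_smul _ _ ((he j).mono inf_le_right) _ (huu i j)]
    exact s.c_congr (hu i j).symm _ _
  have haff : ∀ i j, IsAffineOpen (W i ⊓ W j) := fun i j => (hWaff i).inf (hWaff j)
  have hc₂ : ∀ i j, ∃ n : ℕ, ∀ m, n ≤ m → ∀ (V : X.Opens) (hV : V ≤ W i ⊓ W j) (x : Γ(K, V)),
      resO X (hV.trans inf_le_left) (f i) ^ m • comp (h₁ i) V (hV.trans inf_le_left) x =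
      resO X (hV.trans inf_le_left) (f i) ^ m •
        (resO X hV (u i j) ^ (a * B) • comp (h₁ j) V (hV.trans inf_le_right) x) := by
    intro i j
    have := hfp _ (haff i j)
    obtain ⟨n, hn⟩ := loc_inj (D := D) hE hK (haff i j) (resO X (inf_le_left : W i ⊓ W j ≤ W i) (f i))
      (by
        change X.basicOpen (resO X _ (s.c (W i) (e i) (he i))) = _
        rw [s.res_c]
        exact hD _ _ _)
      (res (homSheaf K E) inf_le_left (h₁ i) -
        u i j ^ (a * B) • res (homSheaf K E) inf_le_right (h₁ j)) (fun V hV hVD x => by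
        have e1 : comp (res (homSheaf K E) inf_le_left (h₁ i) -
          u i j ^ (a * B) • res (homSheaf K E) inf_le_right (h₁ j)) V hV x =
          comp (h₁ i) V (hV.trans inf_le_left) x -
            resO X hV (u i j ^ (a * B)) • comp (h₁ j) V (hV.trans inf_le_right) x := rfl
        rw [e1, hh₁ i V _ hVD, hh₁ j V _ hVD, ← mul_smul, ← resO_resO (inf_le_left : W i ⊓ W j ≤ W i) hV (f i),
          hfu i j, ← resO_resO (inf_le_right : W i ⊓ W j ≤ W j) hV (f j), resO_mul, resO_pow, resO_pow, mul_pow,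
          ← pow_mul, sub_self])
    refine ⟨n, fun m hm V hV x => ?_⟩
    have h1 := hn m hm V hV x
    have e1 : comp (res (homSheaf K E) inf_le_left (h₁ i) -
          u i j ^ (a * B) • res (homSheaf K E) inf_le_right (h₁ j)) V hV x =
          comp (h₁ i) V (hV.trans inf_le_left) x -
            resO X hV (u i j ^ (a * B)) • comp (h₁ j) V (hV.trans inf_le_right) x := rfl
    rw [e1, smul_sub, sub_eq_zero, resO_resO, resO_pow] at h1
    exact h1
  choose n₂ hn₂ using hc₂
  -- a common exponent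
  let C := max (Finset.univ.sup n₁) (Finset.univ.sup fun ij : Fin N × Fin N => n₂ ij.1 ij.2)
  have hC₁ : ∀ i, n₁ i ≤ C := fun i => (Finset.le_sup (Finset.mem_univ i)).trans (le_max_left _ _)
  have hC₂ : ∀ i j, n₂ i j ≤ C := fun i j =>
    (Finset.le_sup (f := fun ij : Fin N × Fin N => n₂ ij.1 ij.2) (Finset.mem_univ (i, j))).trans (le_max_right _ _)
  obtain ⟨α, hα⟩ := exists_hom_of_cover (n := a * (B + C)) W hWcov e he (fun i => (f i) ^ C • h₁ i) (by
    intro i j V hi hj v hv x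
    have hvu : v = resO X (le_inf hi hj) (u i j) := by
      apply ((he j).mono hj).injective'
      rw [← hv]
      have h1 := congrArg (res P (le_inf hi hj)) (hu i j)
      rw [res_smul, res_res, res_res] at h1
      exact h1.symm
    rw [comp_smul'', comp_smul'', resO_pow, resO_pow, hn₂ i j C (hC₂ i j) V (le_inf hi hj) x, ← mul_smul,
      ← mul_smul, hvu]
    congr 1
    rw [← resO_resO (inf_le_left : W i ⊓ W j ≤ W i) (le_inf hi hj) (f i), hfu i j,
      ← resO_resO (inf_le_right : W i ⊓ W j ≤ W j) (le_inf hi hj) (f j), resO_mul, resO_pow]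
    ring)
  refine ⟨B + C, α, ?_⟩
  refine It_hom_ext_cover W hWcov e he fun i V hi x => ?_
  change π.app V (α.app V _) = _
  rw [hα, Sec.hom_ev _ hP _ ((he i).mono hi), spow_c, comp_smul'', Scheme.Modules.Hom.app_smul, resO_pow,
    hn₁ i C (hC₁ i), ← s.res_c (W i) V hi (e i) (he i)]

end Groth.Agent.Sga2lef.H102.SplitExt
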