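import Groth.Agent.Sga2.EszSec
import Groth.Agent.Ega2.TensPow
import Groth.Agent.CurvesC.ProjSpaceBasic
import Groth.Agent.VarietyB.ProjStd
import Groth.Agent.Sga2lef.H102.SplitExt

/-!
# The coordinate `x_0` on `P^r` as a section of a negative twist

* `sec0 θ t`: for `θ : L ⊗ P ≅ O` a section `t` of `L` as a `NegSec.Sec P 1`.
* on `P^r`: generators `gen` of `P` over `D₊(x_j)` with `c (gen j) = x_0 / x_j`, and `IsLocus (sec0 θ x_0) D₊(x_0)`.
-/

set_option autoImplicit false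
universe u
open CategoryTheory CategoryTheory.Limits AlgebraicGeometry Opposite TopologicalSpace

namespace Groth.Agent.Sga2lef.H102.PnSec

open Groth.Agent.Fdesc.LocGen Groth.Agent.Sga2 Groth.Agent.Sga2.EszSec
open Groth.Agent.Sga2lef.H102.SplitExt (IsLocus)

section general

variable {Z : Scheme.{u}} {L P : Z.Modules} (θ : CohB1.tensorMod L P ≅ Coh.structureModule Z)

/-- A section of `L` as a section of the inverse of `P`. -/
noncomputable def sec0 (t : Coh.structureModule Z ⟶ L) : NegSec.Sec P 1 where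
  c V p _ := pair θ (sec t V) p
  res_c V W h p _ := by
    refine (res_pair θ h (sec t V) p).trans ?_
    rw [res_sec]
    rfl
  c_smul V p _ r _ := by
    rw [pair_smul_right, pow_one]

theorem sec0_c (t : Coh.structureModule Z ⟶ L) (V : Z.Opens) (p : Γ(P, V)) (hp) :
    (sec0 θ t).c V p hp = pair θ (sec t V) p := rfl

theorem exists_dual {V : Z.Opens} {l : Γ(L, V)} (hl : IsGen l) : ∃ p : Γ(P, V), IsGen p ∧ pair θ l p = 1 := by
  let θ' : CohB1.tensorMod P L ≅ Coh.structureModule Z := Groth.Agent.Ega2.Tens.swap P L ≪≫ θ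
  refine ⟨dual θ' l hl, isGen_dual θ' hl, ?_⟩
  have h1 := pair_dual θ' hl
  unfold EszSec.pair at h1 ⊢
  rw [← h1]
  congr 1
  change _ = θ.hom.app V ((Groth.Agent.Ega2.Tens.swap P L).hom.app V (tmul (dual θ' l hl) l))
  congr 1
  exact (Groth.Agent.Ega2.TensPow.swap_tmul _ _).symm

end general

variable (k : Type u) [Field k] (r : ℕ) {P : (CohB1.ProjSpace r k).Modules}
  (θ : CohB1.tensorMod (Twist.twistProjSpace r k 1) P ≅ Coh.structureModule (CohB1.ProjSpace r k))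

open Groth.Agent.CurvesC.ProjSpaceBasic (Dp T)

theorem ratio_eq (i j : Fin (r + 1)) : Groth.Agent.VarietyB.ProjStd.ratio (Fin (r + 1)) k i j =
    Groth.Agent.CurvesC.ProjSpaceBasic.ratio r k i j := by
  unfold Groth.Agent.VarietyB.ProjStd.ratio Groth.Agent.CurvesC.ProjSpaceBasic.ratio
  congr 1
  exact Groth.Agent.VarietyB.ProjStd.deh_of_isHomogeneous (Fin (r + 1)) k i (n := 1) _ _

/-- generators over the standard opens. -/
theorem exists_gen_std (j : Fin (r + 1)) :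
    ∃ (p : Γ(P, Dp r k j)) (hp : Groth.Agent.Ega4dA.GenSec.IsGen P (Dp r k j) p),
      (sec0 θ (T r k 0)).c (Dp r k j) p hp = Groth.Agent.VarietyB.ProjStd.ratio (Fin (r + 1)) k j 0 := by
  obtain ⟨p, hp, h1⟩ := exists_dual θ (l := sec (T r k j) (Dp r k j))
    (Groth.Agent.CurvesC.ProjSpaceBasic.isGen_T r k j)
  refine ⟨p, hp, ?_⟩
  rw [sec0_c, ratio_eq]
  have h2 : Groth.Agent.CurvesC.ProjSpaceBasic.ratio r k j 0 • sec (T r k j) (Dp r k j) =
      sec (T r k 0) (Dp r k j) := Groth.Agent.CurvesC.ProjSpaceBasic.ratio_smul r k j 0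
  rw [← h2, pair_smul, h1, mul_one]

theorem basicOpen_ratio (j : Fin (r + 1)) :
    (CohB1.ProjSpace r k).basicOpen (Groth.Agent.VarietyB.ProjStd.ratio (Fin (r + 1)) k j 0) =
      Dp r k j ⊓ Dp r k 0 :=
  Groth.Agent.VarietyB.ProjStd.stdData_basicOpen (Fin (r + 1)) k j 0

theorem isLocus : IsLocus (sec0 θ (T r k 0)) (Dp r k 0) := by
  intro V p hp
  ext x
  by_cases hxV : x ∈ V
  swap
  · constructor
    · intro h
      exact (hxV ((CohB1.ProjSpace r k).basicOpen_le _ h)).elim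
    · intro h
      exact (hxV h.1).elim
  have hx : x ∈ ⨆ j, Dp r k j := by
    rw [Groth.Agent.CurvesC.ProjSpaceBasic.iSup_Dp]
    trivial
  obtain ⟨j, hj⟩ := Opens.mem_iSup.mp hx
  obtain ⟨q, hq, hq'⟩ := exists_gen_std k r θ j
  obtain ⟨v, hv⟩ := (hq.mono (inf_le_right : V ⊓ Dp r k j ≤ Dp r k j)).exists_unit
    (hp.mono (inf_le_left : V ⊓ Dp r k j ≤ V))
  have h1 : Groth.Agent.Ega4dA.GenSec.resO _ (inf_le_left : V ⊓ Dp r k j ≤ V) ((sec0 θ (T r k 0)).c V p hp) =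
      v * Groth.Agent.Ega4dA.GenSec.resO _ (inf_le_right : V ⊓ Dp r k j ≤ Dp r k j)
        (Groth.Agent.VarietyB.ProjStd.ratio (Fin (r + 1)) k j 0) := by
    rw [← hq', (sec0 θ (T r k 0)).res_c, (sec0 θ (T r k 0)).res_c]
    have h2 := (sec0 θ (T r k 0)).c_smul _ _ (hq.mono (inf_le_right : V ⊓ Dp r k j ≤ Dp r k j)) _ v.isUnit
    rw [pow_one] at h2
    rw [← h2]
    exact (sec0 θ (T r k 0)).c_congr hv.symm _ _
  have h2 : (CohB1.ProjSpace r k).basicOpen (Groth.Agent.Ega4dA.GenSec.resO _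
      (inf_le_left : V ⊓ Dp r k j ≤ V) ((sec0 θ (T r k 0)).c V p hp)) =
      (V ⊓ Dp r k j) ⊓ (CohB1.ProjSpace r k).basicOpen ((sec0 θ (T r k 0)).c V p hp) :=
    Scheme.basicOpen_res _ _ _
  have h3 : (CohB1.ProjSpace r k).basicOpen (Groth.Agent.Ega4dA.GenSec.resO _
      (inf_le_right : V ⊓ Dp r k j ≤ Dp r k j) (Groth.Agent.VarietyB.ProjStd.ratio (Fin (r + 1)) k j 0)) =
      (V ⊓ Dp r k j) ⊓ (CohB1.ProjSpace r k).basicOpen
        (Groth.Agent.VarietyB.ProjStd.ratio (Fin (r + 1)) k j 0) :=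
    Scheme.basicOpen_res _ _ _
  rw [h1, Scheme.basicOpen_mul, Scheme.basicOpen_of_isUnit _ v.isUnit, h3, basicOpen_ratio] at h2
  have h4 := congrArg (fun W : (CohB1.ProjSpace r k).Opens => x ∈ W) h2
  constructor
  · intro h
    have h5 : x ∈ (V ⊓ Dp r k j) ⊓ (CohB1.ProjSpace r k).basicOpen ((sec0 θ (T r k 0)).c V p hp) :=
      ⟨⟨hxV, hj⟩, h⟩
    rw [← h2] at h5
    exact ⟨hxV, h5.2.2.2⟩
  · intro h
    have h5 : x ∈ V ⊓ Dp r k j ⊓ (V ⊓ Dp r k j ⊓ (Dp r k j ⊓ Dp r k 0)) :=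
      ⟨⟨hxV, hj⟩, ⟨hxV, hj⟩, hj, h.2⟩
    rw [h2] at h5
    exact h5.2

end Groth.Agent.Sga2lef.H102.PnSec
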