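import Groth.Agent.Sga2lef.H102.Main
import Groth.Agent.Sga2lef.H102.DepthPush
import Groth.Agent.Sga2lef.H102.GoodLoc
import Groth.Agent.Sga2lef.H102.PnSec
import Groth.Agent.Sga2.EszProj68
import Groth.Agent.Sga2.PnStalkDim
import Groth.Agent.Sga2.PnCoprod
import Groth.Agent.Sga5.ProjReg
import Groth.Agent.CohqA.EpiNeg
import Groth.Agent.Pi1C.LefEmb
import Groth.Agent.CurvesC.CurveNum
import Groth.Agent.CycB.ClosSheaf

/-!
# Pro-vanishing of `H^i(X, 𝓘^m)` for the zero scheme of a section of an ample module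
-/

set_option autoImplicit false
universe u
open CategoryTheory CategoryTheory.Limits AlgebraicGeometry Opposite TopologicalSpace

namespace Groth.Agent.Sga2lef.H102.Final

open Groth.Agent.Sga2.TwIt Groth.Agent.Sga2.NegSec Groth.Agent.Sga2
open Groth.Agent.Sga2lef.H102.TwSec Groth.Agent.Sga2lef.H102.SplitExt Groth.Agent.Sga2lef.H102.ProZero
open Groth.Agent.Sga2lef.H102.Transfer (G F)
open Groth.Agent.CurvesC.ProjSpaceBasic (Dp T)
open Groth.Agent.VarietyA.EulerLES
open Groth.Agent.VarietyB Groth.Agent.VarietyB.ProjGlue Groth.Agent.VarietyB.Segre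

section Pn

variable (k : Type u) [Field k] (r : ℕ)

theorem isInvertible_tw (d : ℤ) : PicF.IsInvertible (Twist.twistProjSpace r k d) :=
  Groth.Agent.Ega2.VeryAmpleAmple.isInvertible_twistProjSpace r k d

theorem isCoh_of_isInvertible {X : Scheme.{u}} {N : X.Modules} (hN : PicF.IsInvertible N) : Coh.IsCoh N :=
  Groth.Agent.CohqB.SerTw.isCoh_of_iso (Groth.Agent.Ega2.Tens.lunit N)
    (Groth.Agent.CohqB.SerTw.isCoh_tensorMod (Groth.Agent.CurvesB.UnitCoh.isCoh_structureModule X) hN)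

theorem exists_epi (M : (CohB1.ProjSpace r k).Modules) (hM : Coh.IsCoh M) :
    ∃ (E : (CohB1.ProjSpace r k).Modules) (π : E ⟶ M), Epi π ∧ Coh.IsCoh E ∧ FlatMod.IsFinLocFree E := by
  have := Groth.Agent.Sga5.ProjReg.isNoetherian_projSpace r k
  obtain ⟨m, d, -, φ, hφ⟩ := Groth.Agent.CohqA.EpiNeg.exists_epi_neg r k 0 M hM
  exact ⟨_, φ, hφ, Groth.Agent.CycB.CohProp.isCoh_finite_coproduct _ fun j =>
    isCoh_of_isInvertible (isInvertible_tw k r (d j)), Groth.Agent.Sga2.PnCoprod.isFinLocFree_sum r k d⟩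

/-- The main theorem on projective space. -/
theorem nul_Pn (θ : CohB1.tensorMod (Twist.twistProjSpace r k 1) (Twist.twistProjSpace r k (-1)) ≅
      Coh.structureModule (CohB1.ProjSpace r k)) (M : (CohB1.ProjSpace r k).Modules) (hM : Coh.IsCoh M) (n : ℕ)
    (hd : ∀ x ∈ Dp r k 0, IsClosed ({x} : Set (CohB1.ProjSpace r k)) →
      (n : ℕ∞) < LocCoh.depth ((CohB1.ProjSpace r k).presheaf.stalk x) (M.presheaf.stalk x))
    (i : ℕ) (hi : i ≤ n) : Nul (isInvertible_tw k r (-1)) (PnSec.sec0 θ (T r k 0)) M i := by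
  have h1 := Groth.Agent.Sga5.ProjReg.isNoetherian_projSpace r k
  have h2 : IsProper (CohB1.ProjSpace r k ↘ Spec (CommRingCat.of k)) :=
    Groth.Agent.VarietyB.ProjSpaceProper.isProper_toSpec r k
  have h3 : (CohB1.ProjSpace r k).IsSeparated := Groth.Agent.Sga5.ProjReg.isSeparated_projSpace r k
  have h4 : JacobsonSpace (CohB1.ProjSpace r k) :=
    LocallyOfFiniteType.jacobsonSpace (CohB1.ProjSpace r k ↘ Spec (CommRingCat.of k))
  exact Main.nul_of_lt_depth k (CohB1.ProjSpace r k) (EszProj68.isInverseOf_twist k r)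
    (Groth.Agent.VarietyA.AmpleField.isAmple_twistProjSpace r k) (isInvertible_tw k r (-1)) r
    (Groth.Agent.Sga5.ProjReg.isRegularLocalRing_stalk r k)
    (Groth.Agent.Sga2.PnStalkDim.ringKrullDim_stalk k r) (exists_epi k r) (PnSec.sec0 θ (T r k 0))
    (Groth.Agent.CurvesC.ProjSpaceBasic.isAffineOpen_Dp r k 0) (PnSec.isLocus k r θ) M hM n hd i hi

end Pn

/-- cohomology of a pushforward. -/
theorem mapΓ_eq_zero_of_push {X Z : Scheme.{u}} (ι : X ⟶ Z) [IsClosedImmersion ι] {M N : X.Modules} (φ : M ⟶ N)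
    (i : ℕ) (h : mapΓ ((Scheme.Modules.pushforward ι).map φ) i = 0) : mapΓ φ i = 0 := by
  ext x
  apply (Groth.Agent.CurvesC.CurveNum.hhPush ι N i).injective
  rw [LinearMap.zero_apply, map_zero]
  have h1 := Groth.Agent.CurvesC.CurveNum.abPush_map ι ((toAbF X).map φ) i x
  refine h1.trans ?_
  exact congrArg (fun g => g (Groth.Agent.CurvesC.CurveNum.hhPush ι M i x)) h

theorem mem_of_eq {X : Scheme.{u}} (𝓘 : X.IdealSheafData) {U V : X.Opens} (hU : IsAffineOpen U)
    (hV : IsAffineOpen V) (e : V ≤ U) (h : U = V) (a : Γ(X, U))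
    (ha : X.presheaf.map (homOfLE e).op a ∈ 𝓘.ideal ⟨V, hV⟩) : a ∈ 𝓘.ideal ⟨U, hU⟩ := by
  subst h
  have h1 : X.presheaf.map (homOfLE e).op a = a := by
    have h2 : homOfLE e = 𝟙 U := rfl
    rw [h2, op_id, X.presheaf.map_id]
    rfl
  rwa [h1] at ha

theorem lt_depth_of_isClosed {X : Scheme.{u}} (n : ℕ) (x : X) (hx : IsClosed ({x} : Set X))
    (h : (n : WithBot ℕ∞) < (LocCoh.depth (X.presheaf.stalk x) (X.presheaf.stalk x) : WithBot ℕ∞) +
      topologicalKrullDim ↥(closure ({x} : Set X))) :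
    (n : ℕ∞) < LocCoh.depth (X.presheaf.stalk x) (X.presheaf.stalk x) := by
  have h1 : topologicalKrullDim ↥(closure ({x} : Set X)) ≤ 0 := by
    rw [hx.closure_eq]
    have : DiscreteTopology ({x} : Set X) := inferInstance
    exact topologicalKrullDim_zero_of_discreteTopology ({x} : Set X)
  have h2 := h.trans_le (add_le_add le_rfl h1)
  rw [add_zero] at h2
  exact_mod_cast h2

/-- Pro-vanishing. -/
theorem prozero (k : Type u) [Field k] (X : Scheme.{u}) (f : X ⟶ Spec (CommRingCat.of k)) [IsProper f]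
    (L : X.Modules) (hL : CohB1.IsAmple L) (s : Coh.structureModule X ⟶ L) (n : ℕ)
    (hd : ∀ p : X, p ∉ (PicF2.zeroScheme L s).support → IsClosed ({p} : Set X) →
      (n : ℕ∞) < LocCoh.depth (X.presheaf.stalk p) (X.presheaf.stalk p)) (i : ℕ) (hi : i ≤ n) (l : ℕ) :
    ∃ (M : ℕ) (h : l ≤ M), mapΓ (incl (pow_le_pow (PicF2.zeroScheme L s) h)) i = 0 := by
  obtain ⟨r, D, hD, h0, h1⟩ := Groth.Agent.Pi1C.LefEmb.exists_isClosedData f hL s
  let ι : X ⟶ CohB1.ProjSpace r k := D.toProjSpace f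
  have hι : IsClosedImmersion ι := hD.isClosedImmersion
  have hpre : ∀ j, ι ⁻¹ᵁ (Dp r k j) = D.U j := fun j => D.preimage_basicOpen hD.basicOpen f j
  obtain ⟨θ⟩ := EszProj68.isInverseOf_twist k r
  have hXn : IsLocallyNoetherian X := LocallyOfFiniteType.isLocallyNoetherian f
  choose p hp hc using PnSec.exists_gen_std k r θ
  obtain ⟨c, e, hgood⟩ := GoodLoc.exists_good ι (PnSec.sec0 θ (T r k 0)) (Dp r k)
    (Groth.Agent.CurvesC.ProjSpaceBasic.isAffineOpen_Dp r k) (Groth.Agent.CurvesC.ProjSpaceBasic.iSup_Dp r k)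
    p hp (PicF2.zeroScheme L s) (fun j => by
      rw [hc]
      refine mem_of_eq _ _ (hD.affine j) (hpre j).ge (hpre j) _ ?_
      have h2 := Groth.Agent.Ega2.PnMap.appLE_ratio D f j 0 (hpre j).ge
      have h3 := h1 j
      rw [← h2] at h3
      exact h3) (fun j x hx hxs => by
      rw [hc]
      have h2 : X.basicOpen (ι.app (Dp r k j) (ProjStd.ratio (Fin (r + 1)) k j 0)) =
          ι ⁻¹ᵁ (CohB1.ProjSpace r k).basicOpen (ProjStd.ratio (Fin (r + 1)) k j 0) :=
        (Scheme.preimage_basicOpen ι _).symm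
      rw [h2, PnSec.basicOpen_ratio]
      refine ⟨hx, ?_⟩
      have h3 : x ∈ ι ⁻¹ᵁ (Dp r k 0) := by
        rw [hpre 0]
        exact (h0 x).mpr hxs
      exact h3)
  have hnoeth := Groth.Agent.Sga5.ProjReg.isNoetherian_projSpace r k
  have hG : Coh.IsCoh (G ι) := Groth.Agent.CycB.ClosSheaf.isCoh_push_structureModule ι
  have hF := Transfer.isCoh_F ι (isInvertible_tw k r (-1)) (PnSec.sec0 θ (T r k 0)) c hG
  have hnul := nul_Pn k r θ _ hF n (DepthPush.lt_depth_F ι (isInvertible_tw k r (-1))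
    (PnSec.sec0 θ (T r k 0)) c (PnSec.isLocus k r θ) n (fun x hx hxc => hd x (by
      rw [← h0 x, ← hpre 0]
      exact hx) hxc)) i hi
  obtain ⟨M, hM, hM'⟩ := Transfer.exists_zero ι (isInvertible_tw k r (-1)) (PnSec.sec0 θ (T r k 0)) c
    (PicF2.zeroScheme L s) e hgood Nat.one_pos i hnul l
  exact ⟨M, hM, mapΓ_eq_zero_of_push ι _ i hM'⟩

end Groth.Agent.Sga2lef.H102.Final
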