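import Groth.Agent.CalgA.RegAB
import Groth.Agent.CycA.IntCore2
import Groth.Agent.Ega4B.DepthBasic
import Groth.Agent.S0321

/-!
# Depth over a regular local ring: syzygies

Over a regular local ring `R` of dimension `r`: finite free modules have depth `≥ r`, finite modules of depth `≥ r`
are free, finite modules of depth `> r` vanish; the kernel of a surjection of a module of depth `≥ r` onto `M` has
depth `≥ min(r, depth M + 1)`.
-/

set_option autoImplicit false
universe u

namespace Groth.Agent.Sga2lef.H102.DepthAlg

open Groth.Agent.CalgA Groth.Agent.CalgA.RegAB Groth.Agent.CalgA.RegProjDim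

variable {R : Type u} [CommRing R] [IsRegularLocalRing R] {r : ℕ} (hr : ringKrullDim R = r)

include hr in
theorem depth_self : LocCoh.depth R R = r := by
  have h := (Groth.Agent.CycA.IntCore2.isCohenMacaulayLocalRing_of_regular R).supportDim_eq_depth
  rw [Module.supportDim_self_eq_ringKrullDim, hr] at h
  exact_mod_cast h.symm

include hr in
theorem le_depth_of_free (M : Type u) [AddCommGroup M] [Module R M] [Module.Finite R M] [Module.Free R M] :
    (r : ℕ∞) ≤ LocCoh.depth R M := by
  rcases subsingleton_or_nontrivial M with hM | hM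
  · rw [Groth.Agent.Ega4B.DepthBasic.depth_eq_top_of_subsingleton]
    exact le_top
  · have h := depth_eq (R := R) M 0 ⟨PD.one_iff.mpr inferInstance, fun h => not_subsingleton M (PD.zero_iff.mp h)⟩
    rw [depth_self hr] at h
    rw [h]
    simp

include hr in
theorem depth_le (M : Type u) [AddCommGroup M] [Module R M] [Module.Finite R M] [Nontrivial M] :
    LocCoh.depth R M ≤ r := by
  have h1 : ((LocCoh.depth R M : ℕ∞) : WithBot ℕ∞) ≤ ringKrullDim R :=
    (Groth.Agent.Localalg.Depth2.depth_le_supportDim (R := R) M).trans (Module.supportDim_le_ringKrullDim R M)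
  rw [hr] at h1
  exact_mod_cast h1

include hr in
theorem free_of_le_depth (M : Type u) [AddCommGroup M] [Module R M] [Module.Finite R M]
    (h : (r : ℕ∞) ≤ LocCoh.depth R M) : Module.Free R M := by
  rcases subsingleton_or_nontrivial M with hM | hM
  · infer_instance
  · refine free_of_depth_eq R M ?_
    rw [hr, le_antisymm (depth_le hr M) h]
    rfl

include hr in
theorem subsingleton_of_lt_depth (M : Type u) [AddCommGroup M] [Module R M] [Module.Finite R M]
    (h : (r : ℕ∞) < LocCoh.depth R M) : Subsingleton M := by
  by_contra hM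
  rw [not_subsingleton_iff_nontrivial] at hM
  exact absurd (depth_le hr M) (not_le.mpr h)

/-- the kernel of a surjection. -/
theorem le_depth_kernel (K E F : Type u) [AddCommGroup K] [Module R K] [Module.Finite R K] [AddCommGroup E]
    [Module R E] [Module.Finite R E] [AddCommGroup F] [Module R F] [Module.Finite R F] (f : K →ₗ[R] E)
    (g : E →ₗ[R] F) (hf : Function.Injective f) (hg : Function.Surjective g) (hfg : Function.Exact f g) (c : ℕ)
    (hE : (r : ℕ∞) ≤ LocCoh.depth R E) (hF : (r : ℕ∞) ≤ LocCoh.depth R F + (c + 1 : ℕ)) :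
    (r : ℕ∞) ≤ LocCoh.depth R K + c := by
  have h := (Groth.Agent.S0321.result R (IsLocalRing.maximalIdeal R) K E F f g hf hg hfg).2.2
  have h1 : min (LocCoh.depth R E) (LocCoh.depth R F + 1) ≤ LocCoh.depth R K := h
  have h2 : (r : ℕ∞) ≤ min (LocCoh.depth R E) (LocCoh.depth R F + 1) + c := by
    rw [min_add]
    refine le_min (hE.trans le_self_add) ?_
    rw [add_assoc, add_comm (1 : ℕ∞)]
    exact_mod_cast hF
  exact h2.trans (by gcongr)

end Groth.Agent.Sga2lef.H102.DepthAlg
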