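import Groth.Agent.Sga2lef.H102.SplitExt
import Groth.Agent.Divis.StalkMod
import Groth.Agent.PerfA.QCohEpi
import Mathlib.Topology.JacobsonSpace

/-!
# Sections over an affine open `D` of an epimorphism onto a module which is locally free on `D`
-/

set_option autoImplicit false
universe u
open CategoryTheory CategoryTheory.Limits AlgebraicGeometry Opposite TopologicalSpace

namespace Groth.Agent.Sga2lef.H102.Endpoint

open Groth.Agent.CohqB.HomSheaf (homSheaf comp affineEquiv comp_affineEquiv_symm comp_injective ofHom comp_ofHom)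
open Groth.Agent.Sga2lef.H102.SplitExt

variable {X : Scheme.{u}}

/-- The maximal ideals of the functions on an affine open of a Jacobson scheme come from closed points. -/
theorem exists_closed_point [JacobsonSpace X] {D : X.Opens} (hD : IsAffineOpen D) (m : Ideal Γ(X, D))
    [hm : m.IsMaximal] :
    ∃ (x : X) (hx : x ∈ D), IsClosed ({x} : Set X) ∧ (hD.primeIdealOf ⟨x, hx⟩).asIdeal = m := by
  let y : PrimeSpectrum Γ(X, D) := ⟨m, hm.isPrime⟩
  let x : X := hD.fromSpec y
  have hxU : x ∈ D := by
    have : x ∈ Set.range hD.fromSpec := ⟨y, rfl⟩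
    rw [hD.range_fromSpec] at this
    exact this
  have hxc : IsClosed ({x} : Set X) := by
    have h1 : y ∈ closedPoints (PrimeSpectrum Γ(X, D)) := by
      rw [mem_closedPoints_iff, PrimeSpectrum.isClosed_singleton_iff_isMaximal]
      exact hm
    have h2 := (hD.fromSpec.isOpenEmbedding).preimage_closedPoints
    have h3 : y ∈ hD.fromSpec ⁻¹' closedPoints X := by
      rw [h2]
      exact h1
    exact h3
  refine ⟨x, hxU, hxc, ?_⟩
  have h1 : hD.primeIdealOf ⟨x, hxU⟩ = y := by
    apply hD.fromSpec.isOpenEmbedding.injective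
    exact hD.fromSpec_primeIdealOf ⟨x, hxU⟩
  rw [h1]

/-- A property of localizations of `Γ(K, D)` at maximal ideals from the stalks at closed points. -/
theorem projective_sections [IsLocallyNoetherian X] [JacobsonSpace X] {K : X.Modules} (hK : Coh.IsCoh K)
    {D : X.Opens} (hD : IsAffineOpen D)
    (h : ∀ x ∈ D, IsClosed ({x} : Set X) → Module.Free (X.presheaf.stalk x) (K.presheaf.stalk x)) :
    Module.Projective Γ(X, D) Γ(K, D) := by
  have hNoeth : IsNoetherianRing Γ(X, D) := IsLocallyNoetherian.component_noetherian ⟨D, hD⟩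
  have hfin := Groth.Agent.Divis.StalkMod.finite_sections hK hD
  have hfp := Module.finitePresentation_of_finite Γ(X, D) Γ(K, D)
  rw [← Module.freeLocus_eq_univ_iff, Set.eq_univ_iff_forall]
  intro p
  obtain ⟨m, hm, hpm⟩ := Ideal.exists_le_maximal p.asIdeal p.isPrime.ne_top
  obtain ⟨x, hxD, hxc, hxm⟩ := exists_closed_point hD m
  have hmem : hD.primeIdealOf ⟨x, hxD⟩ ∈ Module.freeLocus Γ(X, D) Γ(K, D) := by
    refine Groth.Agent.Divis.StalkMod.stalk_elim K hK.1 hD x hxD ?_
    intro _ _ _ _ l _ _ _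
    rw [Module.mem_freeLocus_of_isLocalization _ (X.presheaf.stalk x) (K.presheaf.stalk x) l]
    exact h x hxD hxc
  have hsp : p ⤳ hD.primeIdealOf ⟨x, hxD⟩ := by
    rw [← PrimeSpectrum.le_iff_specializes, ← PrimeSpectrum.asIdeal_le_asIdeal, hxm]
    exact hpm
  exact hsp.mem_open Module.isOpen_freeLocus hmem

theorem subsingleton_sections [IsLocallyNoetherian X] [JacobsonSpace X] {K : X.Modules} (hK : Coh.IsCoh K)
    {D : X.Opens} (hD : IsAffineOpen D)
    (h : ∀ x ∈ D, IsClosed ({x} : Set X) → Subsingleton (K.presheaf.stalk x)) (V : X.Opens) (hV : V ≤ D) :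
    Subsingleton Γ(K, V) := by
  have h0 : Subsingleton Γ(K, D) := by
    refine subsingleton_of_forall_eq 0 fun z => ?_
    by_contra hz
    let I : Ideal Γ(X, D) := LinearMap.ker (LinearMap.toSpanSingleton Γ(X, D) Γ(K, D) z)
    have hI : I ≠ ⊤ := by
      intro h1
      have h2 : (1 : Γ(X, D)) ∈ I := h1 ▸ Submodule.mem_top
      rw [LinearMap.mem_ker, LinearMap.toSpanSingleton_apply, one_smul] at h2
      exact hz h2
    obtain ⟨m, hm, hIm⟩ := Ideal.exists_le_maximal I hI
    obtain ⟨x, hxD, hxc, hxm⟩ := exists_closed_point hD m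
    refine Groth.Agent.Divis.StalkMod.stalk_elim K hK.1 hD x hxD ?_
    intro _ _ _ _ l _ _ _
    have h1 := h x hxD hxc
    have h2 : l z = l 0 := Subsingleton.elim _ _
    obtain ⟨⟨a, ha⟩, hc⟩ := IsLocalizedModule.exists_of_eq (S := (hD.primeIdealOf ⟨x, hxD⟩).asIdeal.primeCompl) h2
    apply ha
    rw [hxm]
    apply hIm
    rw [LinearMap.mem_ker, LinearMap.toSpanSingleton_apply]
    rw [smul_zero] at hc
    exact hc
  refine subsingleton_of_forall_eq 0 fun z => ?_
  have h1 : ofHom (𝟙 K) D = 0 := by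
    refine comp_injective hK.1 hD fun m => ?_
    exact Subsingleton.elim (α := Γ(K, D)) _ _
  exact congrArg (fun t : Γ(homSheaf K K, D) => comp t V hV z) h1

/-- An epimorphism onto a module which is projective over `D` has a section over `D`. -/
theorem exists_section {E K : X.Modules} (hE : Coh.IsQCoh E) (hK : Coh.IsQCoh K) {D : X.Opens}
    (hD : IsAffineOpen D) (π : E ⟶ K) [Epi π] [Module.Projective Γ(X, D) Γ(K, D)] :
    ∃ t : Γ(homSheaf K E, D), ∀ (V : X.Opens) (hV : V ≤ D) (x : Γ(K, V)), π.app V (comp t V hV x) = x := by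
  have hE' : E.IsQuasicoherent := hE
  have hK' : K.IsQuasicoherent := hK
  have hsurj := Groth.Agent.PerfA.QCohEpi.app_surjective_of_epi π hD
  let g : Γ(E, D) →ₗ[Γ(X, D)] Γ(K, D) := comp (ofHom π D) D le_rfl
  have hg : Function.Surjective g := hsurj
  obtain ⟨σ, hσ⟩ := Module.projective_lifting_property g LinearMap.id hg
  refine ⟨(affineEquiv hK hD).symm σ, fun V hV x => ?_⟩
  have h1 : post ((affineEquiv hK hD).symm σ) π = ofHom (𝟙 K) D := by
    refine comp_injective hK hD fun m => ?_
    rw [comp_post, comp_affineEquiv_symm]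
    exact congrArg (fun φ : Γ(K, D) →ₗ[Γ(X, D)] Γ(K, D) => φ m) hσ
  exact congrArg (fun t : Γ(homSheaf K K, D) => comp t V hV x) h1

end Groth.Agent.Sga2lef.H102.Endpoint
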