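import Groth.Agent.Sga2.NegSec
import Groth.Agent.CohqB.HomSheaf

/-!
# Morphisms out of `K ⊗ P^n` from local homomorphisms

Given an open cover `W i` with generators `p i` of the invertible module `P` and sections `h i` over `W i` of the
internal Hom `homSheaf K E` which transform like coefficients of degree `n`, there is a morphism
`(It P n).obj K ⟶ E`, `x ⊗ p i ⊗ ⋯ ⊗ p i ↦ h i x`.
-/

set_option autoImplicit false
universe u
open CategoryTheory CategoryTheory.Limits AlgebraicGeometry Opposite TopologicalSpace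

namespace Groth.Agent.Sga2lef.H102.GlueHom

open Groth.Agent.Ega4dA.GenSec (res resO IsGen res_self res_res res_smul res_add res_zero app_res eq_of_locally
  exists_glue isInvertible_iff resO_resO)
open Groth.Agent.Sga2.TwIt Groth.Agent.Sga2.NegSec Groth.Agent.Sga2
open Groth.Agent.CohqB.HomSheaf (homSheaf comp comp_map)

variable {X : Scheme.{u}} {P K E : X.Modules}

theorem comp_map'' {U : X.Opens} (s : Γ(homSheaf K E, U)) {V W : X.Opens} (hV : V ≤ U) (h : W ≤ V) (m : Γ(K, V)) :
    comp s W (h.trans hV) (res K h m) = res E h (comp s V hV m) :=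
  comp_map s hV h m

section ext

variable {ι : Type*} (W : ι → X.Opens) (hW : ⨆ i, W i = ⊤) (p : ∀ i, Γ(P, W i)) (hp : ∀ i, IsGen P (W i) (p i))

include hW in
theorem exists_mem (x : X) : ∃ i, x ∈ W i := by
  have hx : x ∈ ⨆ i, W i := by rw [hW]; trivial
  exact Opens.mem_iSup.mp hx

include hW hp in
theorem It_hom_ext_cover {n : ℕ} {f g : (It P n).obj K ⟶ E}
    (h : ∀ i (V : X.Opens) (hi : V ≤ W i) (x : Γ(K, V)),
      f.app V (ev K (res P hi (p i)) n x) = g.app V (ev K (res P hi (p i)) n x)) : f = g := by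
  ext U z
  refine eq_of_locally _ fun x hx => ?_
  obtain ⟨i, hi⟩ := exists_mem W hW x
  refine ⟨U ⊓ W i, inf_le_left, ⟨hx, hi⟩, ?_⟩
  obtain ⟨m, hm⟩ := (ev_bijective K ((hp i).mono (inf_le_right : U ⊓ W i ≤ W i)) n).2 (res _ inf_le_left z)
  rw [← app_res, ← app_res, ← hm, h i _ _ m]

end ext

variable {ι : Type*} (W : ι → X.Opens) (hW : ⨆ i, W i = ⊤) (p : ∀ i, Γ(P, W i)) (hp : ∀ i, IsGen P (W i) (p i))
  {n : ℕ} (h : ∀ i, Γ(homSheaf K E, W i))
  (hcomp : ∀ i j (V : X.Opens) (hi : V ≤ W i) (hj : V ≤ W j) (v : Γ(X, V)),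
    res P hi (p i) = v • res P hj (p j) → ∀ x : Γ(K, V), comp (h i) V hi x = v ^ n • comp (h j) V hj x)

include hW hp hcomp in
theorem exists_hom_of_cover :
    ∃ φ : (It P n).obj K ⟶ E, ∀ i (V : X.Opens) (hi : V ≤ W i) (x : Γ(K, V)),
      φ.app V (ev K (res P hi (p i)) n x) = comp (h i) V hi x := by
  let R : ∀ U : X.Opens, Γ((It P n).obj K, U) → Γ(E, U) → Prop := fun U z e =>
    ∀ i (V : X.Opens) (hV : V ≤ U) (hi : V ≤ W i) (x : Γ(K, V)),
      ev K (res P hi (p i)) n x = res ((It P n).obj K) hV z → res E hV e = comp (h i) V hi x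
  have key : ∃ φ : (It P n).obj K ⟶ E, ∀ (U : X.Opens) (z : Γ((It P n).obj K, U)), R U z (φ.app U z) := by
    refine LocHom.exists_hom R ?_ ?_ ?_ ?_ ?_ ?_
    · intro U V hVU z b hR i V' hV' hi x hx
      rw [res_res] at hx ⊢
      exact hR i V' (hV'.trans hVU) hi x hx
    · intro U z b b' hb hb'
      refine eq_of_locally _ fun x hx => ?_
      obtain ⟨i, hi⟩ := exists_mem W hW x
      obtain ⟨m, hm⟩ := (ev_bijective K ((hp i).mono (inf_le_right : U ⊓ W i ≤ W i)) n).2 (res _ inf_le_left z)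
      exact ⟨U ⊓ W i, inf_le_left, ⟨hx, hi⟩, (hb i _ inf_le_left inf_le_right m hm).trans
        (hb' i _ inf_le_left inf_le_right m hm).symm⟩
    · intro U z x hx
      obtain ⟨i, hi⟩ := exists_mem W hW x
      obtain ⟨m, hm⟩ := (ev_bijective K ((hp i).mono (inf_le_right : U ⊓ W i ≤ W i)) n).2 (res _ inf_le_left z)
      refine ⟨U ⊓ W i, inf_le_left, ⟨hx, hi⟩, comp (h i) _ inf_le_right m, ?_⟩
      intro j V hV hj y hy
      have hVi : V ≤ W i := hV.trans inf_le_right
      obtain ⟨r, hr⟩ := ((hp i).mono hVi).exists_unit ((hp j).mono hj)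
      obtain ⟨r', hr'⟩ := ((hp j).mono hj).exists_unit ((hp i).mono hVi)
      rw [← hm, res_ev, res_res] at hy
      have h1 : y = r'.1 ^ n • res K hV m := by
        apply (ev_bijective K ((hp j).mono hj) n).1
        rw [hy, ev_smul, ← ev_smul_gen]
        have h2 : (r' : Γ(X, V)) • res P hj (p j) = res P hVi (p i) := hr'
        rw [h2]
      rw [← comp_map'', hcomp i j V hVi hj r'.1 hr'.symm, h1, map_smul]
    · intro U z b hloc i V hV hi x hx
      refine eq_of_locally _ fun y hy => ?_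
      obtain ⟨W', hW', hyW, hR⟩ := hloc y (hV hy)
      refine ⟨V ⊓ W', inf_le_left, ⟨hy, hyW⟩, ?_⟩
      have h1 := hR i (V ⊓ W') inf_le_right (inf_le_left.trans hi) (res K inf_le_left x) (by
        have h2 := congrArg (res _ (inf_le_left : V ⊓ W' ≤ V)) hx
        rw [res_ev, res_res, res_res] at h2
        rw [res_res]
        exact h2)
      rw [res_res] at h1
      rw [res_res, h1, comp_map'']
    · intro U z z' b b' hb hb' i V hV hi x hx
      obtain ⟨m, hm⟩ := (ev_bijective K ((hp i).mono hi) n).2 (res _ hV z)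
      obtain ⟨m', hm'⟩ := (ev_bijective K ((hp i).mono hi) n).2 (res _ hV z')
      have h1 : x = m + m' := (ev_bijective K ((hp i).mono hi) n).1 (by rw [hx, ev_add, hm, hm', res_add])
      rw [res_add, hb i V hV hi m hm, hb' i V hV hi m' hm', h1, map_add]
    · intro U r z b hb i V hV hi x hx
      obtain ⟨m, hm⟩ := (ev_bijective K ((hp i).mono hi) n).2 (res _ hV z)
      have h1 : x = resO X hV r • m := (ev_bijective K ((hp i).mono hi) n).1 (by rw [hx, ev_smul, hm, res_smul])
      rw [res_smul, hb i V hV hi m hm, h1, map_smul]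
  obtain ⟨φ, hφ⟩ := key
  refine ⟨φ, fun i V hi x => ?_⟩
  have h1 := hφ V (ev K (res P hi (p i)) n x) i V le_rfl hi x (by rw [res_self])
  rw [res_self] at h1
  exact h1

end Groth.Agent.Sga2lef.H102.GlueHom
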