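import Groth.Agent.Sga2.NegSec

/-!
# Lifting through a monomorphism of `O_X`-modules by local lifts
-/

set_option autoImplicit false
universe u
open CategoryTheory CategoryTheory.Limits AlgebraicGeometry Opposite TopologicalSpace

namespace Groth.Agent.Sga2lef.H102.Lift

open Groth.Agent.Ega4dA.GenSec (res resO IsGen res_self res_res res_smul res_add res_zero app_res eq_of_locally
  exists_glue isInvertible_iff resO_resO)
open Groth.Agent.Sga2.TwIt

variable {X : Scheme.{u}}

/-- A morphism whose values lie locally in the image of the monomorphism `μ` factors through `μ`. -/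
theorem exists_lift {A N G : X.Modules} (μ : A ⟶ G) [Mono μ] (u : N ⟶ G)
    (h : ∀ (V : X.Opens) (y : Γ(N, V)) (x : X) (_ : x ∈ V), ∃ (W : X.Opens) (hW : W ≤ V) (_ : x ∈ W) (z : Γ(A, W)),
      μ.app W z = res G hW (u.app V y)) : ∃ θ : N ⟶ A, θ ≫ μ = u := by
  have h0 : u ≫ cokernel.π μ = 0 := by
    ext V y
    refine eq_of_locally _ fun x hx => ?_
    obtain ⟨W, hW, hxW, z, hz⟩ := h V y x hx
    refine ⟨W, hW, hxW, ?_⟩
    change res _ hW ((cokernel.π μ).app V (u.app V y)) = res _ hW 0
    rw [res_zero, ← app_res, ← hz]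
    have h1 : (μ ≫ cokernel.π μ).app W z = 0 := by
      rw [cokernel.condition]
      rfl
    exact h1
  exact ⟨Abelian.monoLift μ u h0, Abelian.monoLift_comp μ u h0⟩

/-- Locally, sections lift along an epimorphism. -/
theorem exists_lift_of_epi {M N : X.Modules} (φ : M ⟶ N) [Epi φ] (U : X.Opens) (y : Γ(N, U)) (x : X) (hx : x ∈ U) :
    ∃ (W : X.Opens) (hW : W ≤ U) (_ : x ∈ W) (z : Γ(M, W)), φ.app W z = res N hW y := by
  have hS : (ShortComplex.mk φ (0 : N ⟶ N) comp_zero).Exact := by
    rw [ShortComplex.exact_iff_epi _ rfl]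
    infer_instance
  obtain ⟨W, hW, hxW, z, hz⟩ := exists_lift_of_exact _ hS U y (by rfl) x hx
  exact ⟨W, hW, hxW, z, hz⟩

end Groth.Agent.Sga2lef.H102.Lift
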