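import Groth.Agent.Sga2lef.H102.Endpoint
import Groth.Agent.Sga2lef.H102.DepthAlg
import Groth.Agent.Sga2.ESZ
import Groth.Agent.CycB.StalkExact
import Groth.Agent.Ega3B.DevQC

/-!
# Cohomology in negative twists is killed by powers of `s` under depth conditions off `V(s)`

`Z` proper over `k`, regular of dimension `r` at all closed points, on which coherent modules are quotients of
finite locally free ones, with an ample `L` with inverse `P`; `s : Sec P a` with affine nonvanishing locus `D`.

* `nul_of_lt_depth`: if `F` is coherent with `n < depth F_x` for all closed points `x ∈ D`, then for `i ≤ n` a power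
  of `s` is zero `H^i(Z, F ⊗ P^m ⊗ P^{ab}) ⟶ H^i(Z, F ⊗ P^m)` for all large `m`.
-/

set_option autoImplicit false
universe u
open CategoryTheory CategoryTheory.Limits AlgebraicGeometry Opposite TopologicalSpace

namespace Groth.Agent.Sga2lef.H102.Main

open Groth.Agent.Sga2.TwIt Groth.Agent.Sga2.NegSec Groth.Agent.Sga2
open Groth.Agent.CohqB.HomSheaf (homSheaf comp)
open Groth.Agent.Sga2lef.H102.TwSec Groth.Agent.Sga2lef.H102.SplitExt Groth.Agent.Sga2lef.H102.Endpoint
open Groth.Agent.CycB.StalkExact (stalkLin stalkLin_shortExact)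
open Groth.Agent.VarietyA.EulerLES (mapΓ_zero)

variable (k : Type u) [Field k] (Z : Scheme.{u}) [Z.Over (Spec (CommRingCat.of k))]
  [IsProper (Z ↘ Spec (CommRingCat.of k))] {L P : Z.Modules} (hL : ClSub.IsInverseOf L P) (hamp : CohB1.IsAmple L)
  (hP : PicF.IsInvertible P) (r : ℕ) (hreg : ∀ x : Z, IsRegularLocalRing (Z.presheaf.stalk x))
  (hdim : ∀ x : Z, IsClosed ({x} : Set Z) → ringKrullDim (Z.presheaf.stalk x) = r)

include k hL hamp hreg hdim in
/-- vanishing in negative twists for finite locally free modules. -/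
theorem vanishing (E : Z.Modules) (hE : Coh.IsCoh E) (hEf : FlatMod.IsFinLocFree E) (i : ℕ) (hi : i < r) :
    ∃ m₀, ∀ m, m₀ ≤ m → Subsingleton (Coh.HH Z ((It P m).obj E) i) := by
  obtain ⟨m₀, hm₀⟩ := ESZ.esz_It k Z hL hamp E hE (r - 1) (fun x hx => by
    have := hreg x
    obtain ⟨h1, h2⟩ := Groth.Agent.Divis.StalkMod.finite_free_stalk hE.1 hEf x
    refine lt_of_lt_of_le ?_ (DepthAlg.le_depth_of_free (hdim x hx) (E.presheaf.stalk x))
    exact_mod_cast (show r - 1 < r by omega))
  exact ⟨m₀, fun m hm => hm₀ m hm i (by omega)⟩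

variable (hepi : ∀ F : Z.Modules, Coh.IsCoh F → ∃ (E : Z.Modules) (π : E ⟶ F), Epi π ∧ Coh.IsCoh E ∧
    FlatMod.IsFinLocFree E)
  {a : ℕ} (s : Sec P a) {D : Z.Opens} (hDaff : IsAffineOpen D) (hD : IsLocus s D)

theorem finitePresentation_sections [IsLocallyNoetherian Z] {F : Z.Modules} (hF : Coh.IsCoh F) (U : Z.Opens) (hU : IsAffineOpen U) :
    Module.FinitePresentation Γ(Z, U) Γ(F, U) := by
  have hNoeth : IsNoetherianRing Γ(Z, U) := IsLocallyNoetherian.component_noetherian ⟨U, hU⟩
  have hfin := Groth.Agent.Divis.StalkMod.finite_sections hF hU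
  exact Module.finitePresentation_of_finite Γ(Z, U) Γ(F, U)

section top

variable [IsLocallyNoetherian Z] [CompactSpace Z] [Z.IsSeparated] [JacobsonSpace Z]

include k hL hamp hreg hdim hepi hDaff hD in
theorem nul_free (F : Z.Modules) (hF : Coh.IsCoh F)
    (hd : ∀ x ∈ D, IsClosed ({x} : Set Z) → (r : ℕ∞) ≤ LocCoh.depth (Z.presheaf.stalk x) (F.presheaf.stalk x))
    (i : ℕ) (hi : i < r) : Nul hP s F i := by
  obtain ⟨E, π, hπ, hE, hEf⟩ := hepi F hF
  have hproj : Module.Projective Γ(Z, D) Γ(F, D) := by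
    refine projective_sections hF hDaff fun x hx hxc => ?_
    have := hreg x
    have := Groth.Agent.Divis.StalkMod.finite_stalk hF x
    exact DepthAlg.free_of_le_depth (hdim x hxc) _ (hd x hx hxc)
  obtain ⟨t, ht⟩ := exists_section hE.1 hF.1 hDaff π
  exact nul_of_factor hP s π (exists_factor hP s D hD hE.1 hF.1 (finitePresentation_sections Z hF) π t ht) i
    (vanishing k Z hL hamp r hreg hdim E hE hEf i hi)

include k hL hamp hreg hdim hepi hDaff hD in
theorem nul_main (c : ℕ) : ∀ (F : Z.Modules), Coh.IsCoh F →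
    (∀ x ∈ D, IsClosed ({x} : Set Z) →
      (r : ℕ∞) ≤ LocCoh.depth (Z.presheaf.stalk x) (F.presheaf.stalk x) + c) →
    ∀ i : ℕ, i + c < r → Nul hP s F i := by
  induction c with
  | zero =>
    intro F hF hd i hi
    exact nul_free k Z hL hamp hP r hreg hdim hepi s hDaff hD F hF
      (fun x hx hxc => by simpa using hd x hx hxc) i (by simpa using hi)
  | succ c ih =>
    intro F hF hd i hi
    obtain ⟨E, π, hπ, hE, hEf⟩ := hepi F hF
    have hK : Coh.IsCoh (kernel π) := Groth.Agent.Ega3B.DevQC.isCoh_kernel π hE hF.1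
    let S : ShortComplex Z.Modules := ShortComplex.mk (kernel.ι π) π (kernel.condition π)
    have hS : S.ShortExact := ShortComplex.ShortExact.mk (ShortComplex.exact_kernel π)
    refine nul_of_shortExact hP s hS i (vanishing k Z hL hamp r hreg hdim E hE hEf i (by omega)) ?_
    refine ih (kernel π) hK (fun x hx hxc => ?_) (i + 1) (by omega)
    have := hreg x
    have h1 := Groth.Agent.Divis.StalkMod.finite_stalk hF x
    have h2 := Groth.Agent.Divis.StalkMod.finite_stalk hE x
    have h3 := Groth.Agent.Divis.StalkMod.finite_stalk hK x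
    obtain ⟨h4, h5⟩ := Groth.Agent.Divis.StalkMod.finite_free_stalk hE.1 hEf x
    obtain ⟨e1, e2, e3⟩ := stalkLin_shortExact S hS x
    exact DepthAlg.le_depth_kernel _ _ _ (stalkLin S.f x) (stalkLin S.g x) e1 e3 e2 c
      (DepthAlg.le_depth_of_free (hdim x hxc) (E.presheaf.stalk x)) (hd x hx hxc)

include hDaff hD in
/-- a coherent module which vanishes on `D` is killed by a power of `s`. -/
theorem nul_of_subsingleton (F : Z.Modules) (hF : Coh.IsCoh F)
    (hd : ∀ x ∈ D, IsClosed ({x} : Set Z) → Subsingleton (F.presheaf.stalk x)) (i : ℕ) : Nul hP s F i := by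
  have hsub := subsingleton_sections hF hDaff hd
  obtain ⟨b, hb⟩ := exists_factor hP s D hD hF.1 hF.1 (finitePresentation_sections Z hF) (0 : F ⟶ F) 0
    (fun V hV x => by
      have := hsub V hV
      exact Subsingleton.elim (α := Γ(F, V)) _ _)
  refine ⟨b, 0, fun m _ => ?_⟩
  obtain ⟨α', hα'⟩ := factor_It hP (spow s b) (0 : F ⟶ F) hb m
  rw [← hα', Functor.map_zero, comp_zero, mapΓ_zero]

include k hL hamp hreg hdim hepi hDaff hD in
/-- The main theorem: powers of `s` kill the cohomology in negative twists below the depth off `V(s)`. -/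
theorem nul_of_lt_depth (F : Z.Modules) (hF : Coh.IsCoh F) (n : ℕ)
    (hd : ∀ x ∈ D, IsClosed ({x} : Set Z) → (n : ℕ∞) < LocCoh.depth (Z.presheaf.stalk x) (F.presheaf.stalk x))
    (i : ℕ) (hi : i ≤ n) : Nul hP s F i := by
  rcases lt_or_ge n r with hn | hn
  · refine nul_main k Z hL hamp hP r hreg hdim hepi s hDaff hD (r - (n + 1)) F hF (fun x hx hxc => ?_) i (by omega)
    have h1 : ((n + 1 : ℕ) : ℕ∞) ≤ LocCoh.depth (Z.presheaf.stalk x) (F.presheaf.stalk x) := by
      have := Order.add_one_le_of_lt (hd x hx hxc)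
      exact_mod_cast this
    calc (r : ℕ∞) = ((n + 1 : ℕ) : ℕ∞) + ((r - (n + 1) : ℕ) : ℕ∞) := by
          exact_mod_cast (show r = n + 1 + (r - (n + 1)) by omega)
      _ ≤ _ := by gcongr
  · refine nul_of_subsingleton Z hP s hDaff hD F hF (fun x hx hxc => ?_) i
    have := hreg x
    have := Groth.Agent.Divis.StalkMod.finite_stalk hF x
    exact DepthAlg.subsingleton_of_lt_depth (hdim x hxc) _ (lt_of_le_of_lt (by exact_mod_cast hn) (hd x hx hxc))

end top

end Groth.Agent.Sga2lef.H102.Main
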