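import Groth.Agent.CohqA.IdealMod
import Groth.Agent.Sga2.LefBasic
import Groth.Agent.Sga2lef.H102.TwSec

/-!
# Pro-vanishing of `H^i(X, 𝓘^m)` and the comparison `H^i(X, O) → lim H^i(X, O/𝓘^m)`
-/

set_option autoImplicit false
universe u

open CategoryTheory CategoryTheory.Limits AlgebraicGeometry Opposite TopologicalSpace

namespace Groth.Agent.Sga2lef.H102.ProZero

open Groth.Agent.VarietyA.EulerLES Groth.Agent.Sga2 Groth.Agent.Sga2lef.H102.TwSec

variable {X : Scheme.{u}}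

theorem epi_toSubscheme (I : X.IdealSheafData) : Epi (ClSub.toSubscheme I) :=
  (toAbF X).epi_of_epi_map
    (CohqA.H1Lift.epi_toAb_of_locSurj _ (CohqA.IdealMod.toSubscheme_locSurj I))

/-- `0 → 𝓘 → O → O/𝓘 → 0`. -/
noncomputable def ses (I : X.IdealSheafData) : ShortComplex X.Modules :=
  ShortComplex.mk (ClSub.idealModι I) (ClSub.toSubscheme I) (kernel.condition _)

theorem ses_shortExact (I : X.IdealSheafData) : (ses I).ShortExact where
  exact := ShortComplex.exact_of_f_is_kernel _ (kernelIsKernel _)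
  mono_f := inferInstanceAs (Mono (kernel.ι (ClSub.toSubscheme I)))
  epi_g := epi_toSubscheme I

theorem app_inclusion {I J : X.IdealSheafData} (h : I ≤ J) (V : X.Opens) (e) :
    I.subschemeι.app V ≫ (Scheme.IdealSheafData.inclusion h).appLE (I.subschemeι ⁻¹ᵁ V)
      (J.subschemeι ⁻¹ᵁ V) e = J.subschemeι.app V := by
  have h1 : ∀ (f : J.subscheme ⟶ X) (hf : f = J.subschemeι) (e' : J.subschemeι ⁻¹ᵁ V ≤ f ⁻¹ᵁ V),
      f.appLE V (J.subschemeι ⁻¹ᵁ V) e' = J.subschemeι.app V := by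
    rintro f rfl e'
    exact (Scheme.Hom.app_eq_appLE _).symm
  rw [← h1 _ (Scheme.IdealSheafData.inclusion_subschemeι h) e]
  exact (Scheme.Hom.comp_appLE _ _ _ _ _).symm

theorem toSubscheme_quotMap {I J : X.IdealSheafData} (h : I ≤ J) :
    ClSub.toSubscheme I ≫ Lef.quotMap h = ClSub.toSubscheme J := by
  ext V s
  refine (LefBasic.quotMap_app I J h V (I.subschemeι.app V s)).trans ?_
  exact congr($(app_inclusion h V _) s)

/-- The inclusion of ideal modules. -/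
noncomputable def incl {I J : X.IdealSheafData} (h : I ≤ J) : ClSub.idealMod I ⟶ ClSub.idealMod J :=
  kernel.lift (ClSub.toSubscheme J) (ClSub.idealModι I) (by
    rw [← toSubscheme_quotMap h, ← Category.assoc]
    have h1 : ClSub.idealModι I ≫ ClSub.toSubscheme I = 0 := kernel.condition _
    rw [h1, zero_comp])

theorem incl_ι {I J : X.IdealSheafData} (h : I ≤ J) : incl h ≫ ClSub.idealModι J = ClSub.idealModι I :=
  kernel.lift_ι _ _ _

/-- The morphism of the sequences of `I ≤ J`. -/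
noncomputable def sesMap {I J : X.IdealSheafData} (h : I ≤ J) : ses I ⟶ ses J where
  τ₁ := incl h
  τ₂ := 𝟙 _
  τ₃ := Lef.quotMap h
  comm₁₂ := by
    change incl h ≫ ClSub.idealModι J = ClSub.idealModι I ≫ 𝟙 _
    rw [incl_ι, Category.comp_id]
  comm₂₃ := by
    change 𝟙 _ ≫ ClSub.toSubscheme J = ClSub.toSubscheme I ≫ Lef.quotMap h
    rw [Category.id_comp, toSubscheme_quotMap]

theorem pow_le_pow (𝓘 : X.IdealSheafData) {l M : ℕ} (h : l ≤ M) : 𝓘 ^ M ≤ 𝓘 ^ l :=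
  pow_le_pow_right_of_le_one' le_top h

variable (𝓘 : X.IdealSheafData)

/-- Compatible families are compatible for arbitrary `m ≤ m'`. -/
theorem compat {i : ℕ} (y : ∀ m : ℕ, Coh.HH X (ClSub.quotMod (𝓘 ^ (m + 1))) i)
    (hy : ∀ m : ℕ, mapΓ (Lef.quotMap (Lef.pow_succ_le 𝓘 m)) i (y (m + 1)) = y m) (m d : ℕ) :
    mapΓ (Lef.quotMap (pow_le_pow 𝓘 (show m + 1 ≤ m + d + 1 by omega))) i (y (m + d)) = y m := by
  induction d with
  | zero =>
    have h1 : Lef.quotMap (pow_le_pow 𝓘 (show m + 1 ≤ m + 0 + 1 by omega)) = 𝟙 _ := by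
      have := epi_toSubscheme (𝓘 ^ (m + 1))
      rw [← cancel_epi (ClSub.toSubscheme (𝓘 ^ (m + 1)))]
      rw [Category.comp_id]
      exact toSubscheme_quotMap _
    rw [h1, mapΓ_id]
    rfl
  | succ d ih =>
    have h1 : Lef.quotMap (pow_le_pow 𝓘 (show m + 1 ≤ m + (d + 1) + 1 by omega)) =
        Lef.quotMap (Lef.pow_succ_le 𝓘 (m + d)) ≫
          Lef.quotMap (pow_le_pow 𝓘 (show m + 1 ≤ m + d + 1 by omega)) := by
      have := epi_toSubscheme (𝓘 ^ (m + (d + 1) + 1))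
      rw [← cancel_epi (ClSub.toSubscheme (𝓘 ^ (m + (d + 1) + 1)))]
      rw [toSubscheme_quotMap]
      have h2 := toSubscheme_quotMap (Lef.pow_succ_le 𝓘 (m + d))
      have h3 : ClSub.toSubscheme (𝓘 ^ (m + (d + 1) + 1)) ≫ Lef.quotMap (Lef.pow_succ_le 𝓘 (m + d)) =
        ClSub.toSubscheme (𝓘 ^ (m + d + 1)) := h2
      rw [reassoc_of% h3, toSubscheme_quotMap]
    rw [h1, mapΓ_comp, LinearMap.comp_apply]
    have h2 := hy (m + d)
    have h3 : mapΓ (Lef.quotMap (Lef.pow_succ_le 𝓘 (m + d))) i (y (m + (d + 1))) = y (m + d) := h2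
    rw [h3, ih]

/-- The comparison is bijective in degrees `< n` if `(H^i(X, 𝓘^m))_m` is pro-zero for all `i ≤ n`. -/
theorem bijective_of_prozero (n : ℕ)
    (hpz : ∀ i ≤ n, ∀ l : ℕ, ∃ (M : ℕ) (h : l ≤ M), mapΓ (incl (pow_le_pow 𝓘 h)) i = 0) (i : ℕ) (hi : i < n) :
    (∀ x : Coh.HH X (Coh.structureModule X) i, (∀ m : ℕ, mapΓ (ClSub.toSubscheme (𝓘 ^ (m + 1))) i x = 0) → x = 0) ∧
      (∀ y : (∀ m : ℕ, Coh.HH X (ClSub.quotMod (𝓘 ^ (m + 1))) i),
        (∀ m : ℕ, mapΓ (Lef.quotMap (Lef.pow_succ_le 𝓘 m)) i (y (m + 1)) = y m) →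
        ∃ x : Coh.HH X (Coh.structureModule X) i, ∀ m : ℕ, mapΓ (ClSub.toSubscheme (𝓘 ^ (m + 1))) i x = y m) := by
  -- the kernel of `H^i(O) → H^i(O/𝓘^M')` is zero for `M' ≥ M`
  obtain ⟨M, hM1, hM⟩ := hpz i hi.le 1
  have hzero : ∀ (M' : ℕ) (_ : M ≤ M') (x : Coh.HH X (Coh.structureModule X) i),
      mapΓ (ClSub.toSubscheme (𝓘 ^ M')) i x = 0 → x = 0 := by
    intro M' hM' x hx
    obtain ⟨z, rfl⟩ := (exact₂ (ses (𝓘 ^ M')) (ses_shortExact _) i x).mp hx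
    change mapΓ (ClSub.idealModι (𝓘 ^ M')) i z = 0
    have h1 : ClSub.idealModι (𝓘 ^ M') = incl (pow_le_pow 𝓘 hM') ≫ incl (pow_le_pow 𝓘 hM1) ≫
        ClSub.idealModι (𝓘 ^ 1) := by rw [incl_ι, incl_ι]
    rw [h1, mapΓ_comp, mapΓ_comp, hM]
    simp
  refine ⟨fun x hx => hzero (M + 1) (by omega) x (hx M), fun y hy => ?_⟩
  -- all members lift
  have hlift : ∀ m : ℕ, ∃ x : Coh.HH X (Coh.structureModule X) i,
      mapΓ (ClSub.toSubscheme (𝓘 ^ (m + 1))) i x = y m := by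
    intro m
    obtain ⟨M', hM'1, hM'⟩ := hpz (i + 1) hi (m + 1)
    obtain ⟨d, rfl⟩ : ∃ d, M' = m + d + 1 := ⟨M' - (m + 1), by omega⟩
    have h1 := delta_naturality (ses_shortExact (𝓘 ^ (m + d + 1))) (ses_shortExact (𝓘 ^ (m + 1)))
      (sesMap (pow_le_pow 𝓘 hM'1)) i (y (m + d))
    have h2 : mapΓ (sesMap (pow_le_pow 𝓘 hM'1)).τ₃ i (y (m + d)) = y m := compat 𝓘 y hy m d
    have h3 : mapΓ (sesMap (pow_le_pow 𝓘 hM'1)).τ₁ (i + 1) = 0 := hM'
    rw [h2, h3, LinearMap.zero_apply] at h1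
    exact (exact₃ _ (ses_shortExact (𝓘 ^ (m + 1))) i (i + 1) rfl (y m)).mp h1
  choose x hx using hlift
  have hdown : ∀ (m d : ℕ), mapΓ (ClSub.toSubscheme (𝓘 ^ (m + 1))) i (x (m + d)) = y m := by
    intro m d
    have h1 := compat 𝓘 y hy m d
    rw [← hx (m + d), ← LinearMap.comp_apply, ← mapΓ_comp, toSubscheme_quotMap] at h1
    exact h1
  have hstab : ∀ m, M ≤ m + 1 → ∀ d, x (m + d) = x m := by
    intro m hm d
    rw [← sub_eq_zero]
    refine hzero (m + 1) hm _ ?_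
    rw [map_sub, hdown, hx, sub_self]
  refine ⟨x M, fun m => ?_⟩
  rcases le_total m M with h | h
  · obtain ⟨d, rfl⟩ := Nat.exists_eq_add_of_le h
    exact hdown m d
  · obtain ⟨d, rfl⟩ := Nat.exists_eq_add_of_le h
    rw [← hstab M (by omega) d]
    exact hx (M + d)

end Groth.Agent.Sga2lef.H102.ProZero
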