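import Groth.Agent.Sga2lef.H102.Lift
import Groth.Agent.Sga2lef.H102.ProZero
import Groth.Agent.Sga2lef.H102.SplitExt
import Groth.Agent.Sga2.StalkTw
import Groth.Agent.Ega3B.DevQC

/-!
# From nilpotence of `s` on negative twists on `Z` to pro-vanishing of `H^i(𝓘^m)` on `X ⟶ Z`
-/

set_option autoImplicit false
universe u
open CategoryTheory CategoryTheory.Limits AlgebraicGeometry Opposite TopologicalSpace

namespace Groth.Agent.Sga2lef.H102.Transfer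

open Groth.Agent.Ega4dA.GenSec (res resO IsGen res_self res_res res_smul res_add res_zero app_res eq_of_locally
  exists_glue isInvertible_iff resO_resO)
open Groth.Agent.Sga2.TwIt Groth.Agent.Sga2.NegSec Groth.Agent.Sga2
open Groth.Agent.Sga2lef.H102.TwSec Groth.Agent.Sga2lef.H102.ProZero Groth.Agent.Sga2lef.H102.Lift
open Groth.Agent.VarietyA.EulerLES

variable {X Z : Scheme.{u}} (ι : X ⟶ Z) {P : Z.Modules} (hP : PicF.IsInvertible P) {a : ℕ} (s : Sec P a)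

/-- `ι_* O_X`. -/
noncomputable abbrev G : Z.Modules := (Scheme.Modules.pushforward ι).obj (Coh.structureModule X)

/-- sections of `ι_* O_X` from functions. -/
noncomputable def toG {V : Z.Opens} (w : Γ(X, ι ⁻¹ᵁ V)) : Γ(G ι, V) := w

/-- functions from sections of `ι_* O_X`. -/
noncomputable def ofG {V : Z.Opens} (w : Γ(G ι, V)) : Γ(X, ι ⁻¹ᵁ V) := w

theorem ofG_toG {V : Z.Opens} (w : Γ(X, ι ⁻¹ᵁ V)) : ofG ι (toG ι w) = w := rfl
theorem toG_ofG {V : Z.Opens} (w : Γ(G ι, V)) : toG ι (ofG ι w) = w := rfl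
theorem toG_zero {V : Z.Opens} : toG ι (0 : Γ(X, ι ⁻¹ᵁ V)) = 0 := rfl

theorem smul_toG {V : Z.Opens} (r : Γ(Z, V)) (w : Γ(X, ι ⁻¹ᵁ V)) : r • toG ι w = toG ι (ι.app V r * w) := rfl

theorem res_toG {V W : Z.Opens} (h : W ≤ V) (w : Γ(X, ι ⁻¹ᵁ V)) :
    res (G ι) h (toG ι w) = toG ι (resO X (show ι ⁻¹ᵁ W ≤ ι ⁻¹ᵁ V from fun _ hx => h hx) w) := rfl

theorem resO_app {V W : Z.Opens} (h : W ≤ V) (r : Γ(Z, V)) :
    resO X (show ι ⁻¹ᵁ W ≤ ι ⁻¹ᵁ V from fun _ hx => h hx) (ι.app V r) = ι.app W (resO Z h r) :=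
  congr($(ι.naturality (homOfLE h).op) r).symm

/-- Opens of `Z` with a generator of `P` on which the needed local facts hold. -/
structure Good (𝓘 : X.IdealSheafData) (c e : ℕ) (W : Z.Opens) (p : Γ(P, W)) (hp : IsGen P W p) : Prop where
  aff : IsAffineOpen (ι ⁻¹ᵁ W)
  tors : ∀ (m : ℕ) (w : Γ(X, ι ⁻¹ᵁ W)), (ι.app W (s.c W p hp)) ^ (m + c) * w = 0 →
    (ι.app W (s.c W p hp)) ^ c * w = 0
  mem : ι.app W (s.c W p hp) ∈ 𝓘.ideal ⟨ι ⁻¹ᵁ W, aff⟩
  le : 𝓘.ideal ⟨ι ⁻¹ᵁ W, aff⟩ ^ e ≤ Ideal.span {ι.app W (s.c W p hp)}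

section img

variable (c : ℕ)

/-- The image of `s ^ c` on `ι_* O_X`. -/
noncomputable def F : Z.Modules := Abelian.image ((spow s c).hom hP (G ι))

noncomputable def q : (It P (a * c)).obj (G ι) ⟶ F ι hP s c := Abelian.factorThruImage _

noncomputable def j : F ι hP s c ⟶ G ι := Abelian.image.ι _

theorem q_j : q ι hP s c ≫ j ι hP s c = (spow s c).hom hP (G ι) := Abelian.image.fac _

instance : Epi (q ι hP s c) := inferInstanceAs (Epi (Abelian.factorThruImage _))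
instance : Mono (j ι hP s c) := inferInstanceAs (Mono (Abelian.image.ι _))

theorem j_q {V : Z.Opens} (y : Γ((It P (a * c)).obj (G ι), V)) :
    (j ι hP s c).app V ((q ι hP s c).app V y) = ((spow s c).hom hP (G ι)).app V y := by
  rw [← q_j]
  rfl

theorem j_injective (V : Z.Opens) : Function.Injective ((j ι hP s c).app V) :=
  Smoothlim.ModKer.app_injective_of_mono _ V

include hP in
/-- local form of the sections of `F`. -/
theorem exists_local (V : Z.Opens) (y : Γ(F ι hP s c, V)) (z : Z) (hz : z ∈ V) (p : Γ(P, V)) (hp : IsGen P V p) :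
    ∃ (W : Z.Opens) (hW : W ≤ V) (_ : z ∈ W) (w : Γ(X, ι ⁻¹ᵁ W)),
      (j ι hP s c).app W (res _ hW y) = toG ι (ι.app W (s.c W (res P hW p) (hp.mono hW)) ^ c * w) := by
  obtain ⟨W, hW, hzW, t, ht⟩ := exists_lift_of_epi (q ι hP s c) V y z hz
  obtain ⟨w, rfl⟩ := (ev_bijective (G ι) (hp.mono hW) (a * c)).2 t
  refine ⟨W, hW, hzW, ofG ι w, ?_⟩
  rw [← ht, j_q, Sec.hom_ev _ hP _ (hp.mono hW), spow_c, ← toG_ofG ι w, smul_toG, map_pow, ofG_toG]

theorem isCoh_F [IsLocallyNoetherian Z] (hG : Coh.IsCoh (G ι)) : Coh.IsCoh (F ι hP s c) := by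
  have h1 : Coh.IsQCoh ((It P (a * c)).obj (G ι)) := StalkTw.isQCoh_It hP hG.1 _
  exact Groth.Agent.Ega3B.DevQC.isCoh_kernel _ hG (Groth.Agent.PerfA.QCohSerre.isQCoh_cokernel _ h1 hG.1)

/-- `F ⊗ P^{am} ⊗ P^{ab} ⟶ ι_* O_X`. -/
noncomputable def μ (b m : ℕ) : (It P (a * b)).obj ((It P (a * m)).obj (F ι hP s c)) ⟶ G ι :=
  (spow s b).hom hP _ ≫ (spow s m).hom hP _ ≫ j ι hP s c

theorem ν_ev (m : ℕ) {W : Z.Opens} {p : Γ(P, W)} (hp : IsGen P W p) (x : Γ(F ι hP s c, W)) :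
    ((spow s m).hom hP _ ≫ j ι hP s c).app W (ev _ p (a * m) x) = s.c W p hp ^ m • (j ι hP s c).app W x := by
  change (j ι hP s c).app W (((spow s m).hom hP _).app W _) = _
  rw [Sec.hom_ev _ hP _ hp, spow_c, Scheme.Modules.Hom.app_smul]

theorem μ_ev (b m : ℕ) {W : Z.Opens} {p : Γ(P, W)} (hp : IsGen P W p) (x : Γ(F ι hP s c, W)) :
    (μ ι hP s c b m).app W (ev _ p (a * b) (ev _ p (a * m) x)) =
      s.c W p hp ^ (b + m) • (j ι hP s c).app W x := by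
  change ((spow s m).hom hP _ ≫ j ι hP s c).app W (((spow s b).hom hP _).app W _) = _
  rw [Sec.hom_ev _ hP _ hp, spow_c, Scheme.Modules.Hom.app_smul, ν_ev, pow_add, mul_smul]

variable (𝓘 : X.IdealSheafData) (e : ℕ)
  (hgood : ∀ (V : Z.Opens) (z : Z), z ∈ V → ∃ (W : Z.Opens) (_ : W ≤ V), z ∈ W ∧
    ∀ (p : Γ(P, W)) (hp : IsGen P W p), Good ι s 𝓘 c e W p hp)

include hgood hP in
/-- local form of the sections of `F` on good opens. -/
theorem exists_good (V : Z.Opens) (y : Γ(F ι hP s c, V)) (z : Z) (hz : z ∈ V) (p : Γ(P, V)) (hp : IsGen P V p) :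
    ∃ (W : Z.Opens) (hW : W ≤ V) (_ : z ∈ W) (w : Γ(X, ι ⁻¹ᵁ W)), Good ι s 𝓘 c e W (res P hW p) (hp.mono hW) ∧
      (j ι hP s c).app W (res _ hW y) = toG ι (ι.app W (s.c W (res P hW p) (hp.mono hW)) ^ c * w) := by
  obtain ⟨W, hW, hzW, w, hw⟩ := exists_local ι hP s c V y z hz p hp
  obtain ⟨W', hW', hzW', hg⟩ := hgood W z hzW
  refine ⟨W', hW'.trans hW, hzW', resO X (fun _ hx => hW' hx) w, hg _ _, ?_⟩
  have h1 := congrArg (res (G ι) hW') hw
  rw [← app_res, res_res, res_toG] at h1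
  rw [h1]
  congr 1
  change (X.presheaf.map _).hom _ = _
  rw [map_mul, map_pow]
  have h2 := resO_app ι hW' (s.c W (res P hW p) (hp.mono hW))
  rw [s.res_c] at h2
  have h3 : s.c W' (res P hW' (res P hW p)) ((hp.mono hW).mono hW') =
      s.c W' (res P (hW'.trans hW) p) (hp.mono (hW'.trans hW)) := s.c_congr (res_res _ _ _ _) _ _
  rw [h3] at h2
  exact congrArg (fun t => t ^ c * _) h2

include hgood in
theorem μ_injective (b m : ℕ) (V : Z.Opens) : Function.Injective ((μ ι hP s c b m).app V) := by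
  rw [injective_iff_map_eq_zero]
  intro y hy
  refine eq_of_locally _ fun z hz => ?_
  -- a good neighbourhood
  obtain ⟨V₀, hV₀, hzV₀, p, hp⟩ := exists_gen hP V z hz
  obtain ⟨y₁, hy₁⟩ := (ev_bijective _ hp (a * b)).2 (res _ hV₀ y)
  obtain ⟨x, rfl⟩ := (ev_bijective _ hp (a * m)).2 y₁
  obtain ⟨W, hW, hzW, w, hg, hw⟩ := exists_good ι hP s c 𝓘 e hgood V₀ x z hzV₀ p hp
  refine ⟨W, hW.trans hV₀, hzW, ?_⟩
  have h1 : (μ ι hP s c b m).app W (res _ (hW.trans hV₀) y) = 0 := by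
    rw [app_res, hy, res_zero]
  have h2 : res _ (hW.trans hV₀) y = ev _ (res P hW p) (a * b) (ev _ (res P hW p) (a * m) (res _ hW x)) := by
    rw [← res_res _ hV₀ hW, ← hy₁, res_ev, res_ev]
  rw [h2, μ_ev ι hP s c b m (hp.mono hW), hw, smul_toG, map_pow, ← mul_assoc, ← pow_add] at h1
  have h3 : (j ι hP s c).app W (res _ hW x) = 0 := by
    rw [hw, hg.tors (b + m) w h1]
    rfl
  have h4 : res _ hW x = 0 := j_injective ι hP s c W (by rw [h3, map_zero])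
  have h5 : ∀ n (N : Z.Modules), ev N (res P hW p) n (0 : Γ(N, W)) = 0 := fun n N => by
    have := ev_smul N (res P hW p) n (0 : Γ(Z, W)) 0
    rwa [zero_smul, zero_smul] at this
  rw [h2, h4, h5, h5, res_zero]

/-- the pushforward of the inclusion of the ideal module. -/
noncomputable def u (l : ℕ) : (Scheme.Modules.pushforward ι).obj (ClSub.idealMod (𝓘 ^ l)) ⟶ G ι :=
  (Scheme.Modules.pushforward ι).map (ClSub.idealModι (𝓘 ^ l))

theorem u_app (l : ℕ) (V : Z.Opens) (y : Γ((Scheme.Modules.pushforward ι).obj (ClSub.idealMod (𝓘 ^ l)), V)) :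
    (u ι 𝓘 l).app V y = (ClSub.idealModι (𝓘 ^ l)).app (ι ⁻¹ᵁ V) y := rfl

instance mono_u (l : ℕ) : Mono (u ι 𝓘 l) :=
  mono_of_injective _ fun V => Groth.Agent.CohqA.IdealMod.idealModι_app_injective (𝓘 ^ l) (ι ⁻¹ᵁ V)

theorem incl_u {l M : ℕ} (h : l ≤ M) :
    (Scheme.Modules.pushforward ι).map (incl (pow_le_pow 𝓘 h)) ≫ u ι 𝓘 l = u ι 𝓘 M := by
  rw [u, ← Functor.map_comp, incl_ι]
  rfl

include hgood in
theorem exists_θ (b m M : ℕ) (hM : e * (b + m + c) ≤ M) :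
    ∃ θ : (Scheme.Modules.pushforward ι).obj (ClSub.idealMod (𝓘 ^ M)) ⟶
      (It P (a * b)).obj ((It P (a * m)).obj (F ι hP s c)), θ ≫ μ ι hP s c b m = u ι 𝓘 M := by
  have : Mono (μ ι hP s c b m) := mono_of_injective _ (μ_injective ι hP s c 𝓘 e hgood b m)
  refine exists_lift _ _ fun V y z hz => ?_
  obtain ⟨V₀, hV₀, hzV₀, p, hp⟩ := exists_gen hP V z hz
  obtain ⟨W, hW, hzW, hg⟩ := hgood V₀ z hzV₀
  have hg := hg (res P hW p) (hp.mono hW)
  have h1 : (u ι 𝓘 M).app W (res _ (hW.trans hV₀) y) = res _ (hW.trans hV₀) ((u ι 𝓘 M).app V y) := app_res _ _ _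
  have h2 : ofG ι ((u ι 𝓘 M).app W (res _ (hW.trans hV₀) y)) ∈ (𝓘 ^ M).ideal ⟨ι ⁻¹ᵁ W, hg.aff⟩ :=
    (Groth.Agent.CohqA.IdealMod.exists_idealModι_app_iff (𝓘 ^ M) ⟨ι ⁻¹ᵁ W, hg.aff⟩ _).mp ⟨_, rfl⟩
  have h3 : (𝓘 ^ M).ideal ⟨ι ⁻¹ᵁ W, hg.aff⟩ ≤
      Ideal.span {ι.app W (s.c W (res P hW p) (hp.mono hW)) ^ (b + m + c)} := by
    rw [Scheme.IdealSheafData.ideal_pow, Pi.pow_apply, ← Ideal.span_singleton_pow]
    refine (Ideal.pow_le_pow_right hM).trans ?_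
    rw [pow_mul]
    exact Ideal.pow_right_mono hg.le _
  obtain ⟨w, hw⟩ := Ideal.mem_span_singleton'.mp (h3 h2)
  refine ⟨W, hW.trans hV₀, hzW, ev _ (res P hW p) (a * b) (ev _ (res P hW p) (a * m)
    ((q ι hP s c).app W (ev _ (res P hW p) (a * c) (toG ι w)))), ?_⟩
  rw [μ_ev ι hP s c b m (hp.mono hW), j_q, Sec.hom_ev _ hP _ (hp.mono hW), spow_c, ← mul_smul, ← pow_add,
    smul_toG, map_pow, mul_comm, hw, toG_ofG, h1]

include hgood in
theorem exists_lam (m l : ℕ) (hl : l ≤ m + c) :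
    ∃ lam : (It P (a * m)).obj (F ι hP s c) ⟶ (Scheme.Modules.pushforward ι).obj (ClSub.idealMod (𝓘 ^ l)),
      lam ≫ u ι 𝓘 l = (spow s m).hom hP _ ≫ j ι hP s c := by
  refine exists_lift _ _ fun V y z hz => ?_
  obtain ⟨V₀, hV₀, hzV₀, p, hp⟩ := exists_gen hP V z hz
  obtain ⟨x, hx⟩ := (ev_bijective _ hp (a * m)).2 (res _ hV₀ y)
  obtain ⟨W, hW, hzW, w, hg, hw⟩ := exists_good ι hP s c 𝓘 e hgood V₀ x z hzV₀ p hp
  have h2 : res _ (hW.trans hV₀) y = ev _ (res P hW p) (a * m) (res _ hW x) := by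
    rw [← res_res _ hV₀ hW, ← hx, res_ev]
  have h3 : ((spow s m).hom hP _ ≫ j ι hP s c).app W (res _ (hW.trans hV₀) y) =
      toG ι (ι.app W (s.c W (res P hW p) (hp.mono hW)) ^ (m + c) * w) := by
    rw [h2, ν_ev ι hP s c m (hp.mono hW), hw, smul_toG, map_pow, ← mul_assoc, ← pow_add]
  have h4 : ι.app W (s.c W (res P hW p) (hp.mono hW)) ^ (m + c) * w ∈ (𝓘 ^ l).ideal ⟨ι ⁻¹ᵁ W, hg.aff⟩ := by
    rw [Scheme.IdealSheafData.ideal_pow, Pi.pow_apply]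
    exact Ideal.mul_mem_right _ _ (Ideal.pow_le_pow_right hl (Ideal.pow_mem_pow hg.mem _))
  obtain ⟨t, ht⟩ := (Groth.Agent.CohqA.IdealMod.exists_idealModι_app_iff (𝓘 ^ l) ⟨ι ⁻¹ᵁ W, hg.aff⟩ _).mpr h4
  refine ⟨W, hW.trans hV₀, hzW, t, ?_⟩
  rw [← app_res, h3, u_app]
  exact ht

include hgood in
/-- pro-vanishing on `Z`. -/
theorem exists_zero (ha : 0 < a) (i : ℕ) (hnul : Nul hP s (F ι hP s c) i) (l : ℕ) :
    ∃ (M : ℕ) (h : l ≤ M), mapΓ ((Scheme.Modules.pushforward ι).map (incl (pow_le_pow 𝓘 h))) i = 0 := by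
  obtain ⟨b, m₀, hm₀⟩ := hnul
  let m := max m₀ l
  let M := max l (e * (b + m + c))
  obtain ⟨θ, hθ⟩ := exists_θ ι hP s c 𝓘 e hgood b m M (le_max_right _ _)
  obtain ⟨lam, hlam⟩ := exists_lam ι hP s c 𝓘 e hgood m l (by have := le_max_right m₀ l; omega)
  have hlM : l ≤ M := le_max_left _ _
  refine ⟨M, hlM, ?_⟩
  have h1 : (Scheme.Modules.pushforward ι).map (incl (pow_le_pow 𝓘 hlM)) =
      θ ≫ (spow s b).hom hP _ ≫ lam := by
    rw [← cancel_mono (u ι 𝓘 l), incl_u ι 𝓘 hlM, Category.assoc, Category.assoc, hlam]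
    exact hθ.symm
  have h2 : mapΓ ((spow s b).hom hP ((It P (a * m)).obj (F ι hP s c))) i = 0 := by
    refine hm₀ _ ?_
    have h3 := le_max_left m₀ l
    have h4 := Nat.le_mul_of_pos_left m ha
    omega
  rw [h1, mapΓ_comp, mapΓ_comp, h2]
  simp

end img

end Groth.Agent.Sga2lef.H102.Transfer
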